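import Cfsg.Agent.Screen.KegelWielandt.Coprime
import Cfsg.Agent.Core.KegelLemma

/-! The theorem of Kegel and Wielandt. -/

set_option autoImplicit false
set_option linter.unusedSectionVars false

namespace Cfsg.Agent.Screen.KW

open scoped Pointwise
open Cfsg Cfsg.Agent
open Cfsg.Agent.Core (IsPiNat)

universe u

variable {G : Type u} [Group G] [Finite G]

theorem isSolvable_of_products_aux : ∀ (n : ℕ) (G : Type u) [Group G] [Finite G] (A B : Subgroup G),
    Nat.card G ≤ n → Group.IsNilpotent A → Group.IsNilpotent B →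
    (∀ g : G, ∃ a ∈ A, ∃ b ∈ B, g = a * b) → Group.IsSolvable G := by
  intro n
  induction n with
  | zero => intro G _ _ _ _ h; exact absurd h (by simp [Nat.card_pos.ne'])
  | succ n ih =>
    intro G _ _ A B hn hA hB hAB
    by_cases hcop : (Nat.card A).Coprime (Nat.card B)
    · exact Fac.isSolvable ⟨hA, hB, hcop, hAB⟩
    rcases subsingleton_or_nontrivial G with hG | hG
    · infer_instance
    by_contra hns
    -- quotients are solvable, so no proper subgroup `A N` is
    have hquot : ∀ (N : Subgroup G) [N.Normal], N ≠ ⊥ → Group.IsSolvable (G ⧸ N) := by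
      intro N _ hN
      have h2 := N.card_mul_index
      rw [Subgroup.index_eq_card] at h2
      have h1 : 1 < Nat.card N := Subgroup.one_lt_card_iff_ne_bot N |>.2 hN
      have h3 : 0 < Nat.card (G ⧸ N) := Nat.card_pos
      refine ih (G ⧸ N) (A.map (QuotientGroup.mk' N)) (B.map (QuotientGroup.mk' N)) (by nlinarith)
        (Core.isNilpotent_map hA _) (Core.isNilpotent_map hB _) fun g => ?_
      obtain ⟨g, rfl⟩ := QuotientGroup.mk'_surjective N g
      obtain ⟨a, ha, b, hb, rfl⟩ := hAB g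
      exact ⟨_, Subgroup.mem_map_of_mem _ ha, _, Subgroup.mem_map_of_mem _ hb, map_mul _ _ _⟩
    have hfull : ∀ {A B : Subgroup G}, Group.IsNilpotent A → Group.IsNilpotent B →
        (∀ g : G, ∃ a ∈ A, ∃ b ∈ B, g = a * b) → ∀ (N : Subgroup G) [N.Normal], N ≠ ⊥ →
        ∀ g : G, ∃ a ∈ A, ∃ x ∈ N, g = a * x := by
      intro A B hA hB hAB N hN hne g
      by_contra hg
      have hH : A ⊔ N ≠ ⊤ := fun e => hg (by
        have hm : g ∈ ((A ⊔ N : Subgroup G) : Set G) := e ▸ Subgroup.mem_top g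
        rw [Subgroup.mul_normal] at hm
        obtain ⟨a, ha, x, hx, rfl⟩ := hm
        exact ⟨a, ha, x, hx, rfl⟩)
      have hlt : Nat.card (A ⊔ N : Subgroup G) < Nat.card G :=
        lt_of_le_of_ne (Subgroup.card_le_card_group _) (fun e => hH (Subgroup.eq_top_of_card_eq _ e))
      have hnil : ∀ {C : Subgroup G}, Group.IsNilpotent C →
          Group.IsNilpotent ↥((C ⊓ (A ⊔ N)).subgroupOf (A ⊔ N)) := fun hC =>
        Core.isNilpotent_congr (Subgroup.subgroupOfEquivOfLe inf_le_right).symm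
          (Core.isNilpotent_of_le inf_le_left hC)
      have hsol : Group.IsSolvable (A ⊔ N : Subgroup G) := by
        refine ih _ _ _ (by omega) (hnil (C := A) hA) (hnil (C := B) hB) fun x => ?_
        obtain ⟨a, ha, b, hb, e⟩ := hAB x
        have haH : a ∈ A ⊔ N := Subgroup.mem_sup_left ha
        have hbH : b ∈ A ⊔ N := by
          have := mul_mem (inv_mem haH) x.2
          rwa [e, inv_mul_cancel_left] at this
        exact ⟨⟨a, haH⟩, ⟨ha, haH⟩, ⟨b, hbH⟩, ⟨hb, hbH⟩, Subtype.ext e⟩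
      exact hns ((Group.isSolvable_iff_subgroup_quotient N).2
        ⟨solvable_of_solvable_injective (f := Subgroup.inclusion (le_sup_right : N ≤ A ⊔ N))
          (Subgroup.inclusion_injective _), hquot N hne⟩)
    obtain ⟨p, hp, hpA, hpB⟩ := Nat.Prime.not_coprime_iff_dvd.mp hcop
    have := Fact.mk hp
    set PA := part A ({p} : Set ℕ) with hPAdef
    set PB := part B ({p} : Set ℕ) with hPBdef
    have hPA : PA ≠ ⊥ := part_ne_bot hA hp rfl hpA
    have hPB : PB ≠ ⊥ := part_ne_bot hB hp rfl hpB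
    set X := Subgroup.normalClosure (PA : Set G) with hX
    set Y := Subgroup.normalClosure (PB : Set G) with hY
    have hXne : X ≠ ⊥ := fun e => hPA (le_bot_iff.mp (Subgroup.le_normalClosure.trans e.le))
    have hYne : Y ≠ ⊥ := fun e => hPB (le_bot_iff.mp (Subgroup.le_normalClosure.trans e.le))
    -- the part of one factor lies in the normal closure of the part of the other
    have hsub : ∀ {A B : Subgroup G}, Group.IsNilpotent A → Group.IsNilpotent B →
        (∀ g : G, ∃ a ∈ A, ∃ b ∈ B, g = a * b) → ∀ (N : Subgroup G) [N.Normal], N ≠ ⊥ →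
        part A ({p} : Set ℕ) ≤ N → part B ({p} : Set ℕ) ≤ N := by
      intro A B hA hB hAB N _ hne hAN b hb
      obtain ⟨a, ha, x, hx, hbe⟩ := hfull hA hB hAB N hne b
      obtain ⟨c, hc, hAc⟩ := card_eq_part_mul hA ({p} : Set ℕ)
      have hac : a ^ c ∈ part A ({p} : Set ℕ) := by
        refine (mem_part_iff hA).mpr ⟨pow_mem ha c, (isPiNat_card_part A ({p} : Set ℕ)).of_dvd ?_⟩
        refine orderOf_dvd_of_pow_eq_one ?_
        rw [← pow_mul, mul_comm, ← hAc]
        exact orderOf_dvd_iff_pow_eq_one.mp (Subgroup.orderOf_dvd_natCard A ha)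
      have h1 : (QuotientGroup.mk' N) b = (QuotientGroup.mk' N) a := by
        rw [hbe, map_mul, show (QuotientGroup.mk' N) x = 1 from (QuotientGroup.eq_one_iff x).mpr hx,
          mul_one]
      have h2 : orderOf ((QuotientGroup.mk' N) b) ∣ c := orderOf_dvd_of_pow_eq_one (by
        rw [h1, ← map_pow]; exact (QuotientGroup.eq_one_iff _).mpr (hAN hac))
      have h3 : orderOf ((QuotientGroup.mk' N) b) = 1 :=
        Core.IsPiNat.eq_one (((mem_part_iff hB).mp hb).2.of_dvd (orderOf_map_dvd _ b))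
          (hc.of_dvd h2)
      exact (QuotientGroup.eq_one_iff b).mp (orderOf_eq_one_iff.mp h3)
    have hBA := Core.forall_exists_mul_symm hAB
    have hXY : X = Y := le_antisymm
      (Subgroup.normalClosure_le_normal (hsub hB hA hBA Y hYne Subgroup.le_normalClosure))
      (Subgroup.normalClosure_le_normal (hsub hA hB hAB X hXne Subgroup.le_normalClosure))
    have hPAX : PA ≤ X := Subgroup.le_normalClosure
    have hPBX : PB ≤ X := hXY ▸ Subgroup.le_normalClosure
    have hprod : ∀ x : X, ∃ S : Subgroup X, S ≠ ⊤ ∧ (S : Set X) =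
        (PA.subgroupOf X : Set X) * ((MulAut.conj x • PB.subgroupOf X : Subgroup X) : Set X) := by
      intro x
      have hAB' := Core.forall_exists_mul_conj_smul hAB 1 (x : G)
      rw [map_one, one_smul] at hAB'
      have hB' : Group.IsNilpotent ↥(MulAut.conj (x : G) • B) :=
        Core.isNilpotent_congr (Subgroup.equivSMul (MulAut.conj (x : G)) B) hB
      obtain ⟨K, hK, hKe⟩ := exists_part_mul_prime (p := p) hA hB' hAB'
      have hpart : part (MulAut.conj (x : G) • B) ({p} : Set ℕ) = MulAut.conj (x : G) • PB := by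
        ext g
        have ho : orderOf ((x : G)⁻¹ * g * x) = orderOf g := by
          simpa using orderOf_injective (MulAut.conj (x : G)⁻¹).toMonoidHom
            (MulAut.conj (x : G)⁻¹).injective g
        rw [mem_part_iff hB', Core.mem_conj_smul_iff, Core.mem_conj_smul_iff, mem_part_iff hB, ho]
      rw [hpart] at hKe
      have hKp : IsPGroup p K :=
        (Core.isPGroup_iff_isPiNat (G := K)).mpr (Core.isPiHall_iff.mp hK).1
      have hKX : K ≤ X := fun g hg => by
        have hg' : g ∈ (K : Set G) := hg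
        rw [hKe] at hg'
        obtain ⟨a, ha, b, hb, rfl⟩ := hg'
        have hb' : (x : G)⁻¹ * b * x ∈ X := hPBX (Core.mem_conj_smul_iff.mp hb)
        have hb'' : b ∈ X := by
          have := mul_mem (mul_mem x.2 hb') (inv_mem x.2)
          simpa [mul_assoc] using this
        exact mul_mem (hPAX ha) hb''
      refine ⟨K.subgroupOf X, fun e => ?_, ?_⟩
      · rw [Subgroup.subgroupOf_eq_top] at e
        have := (hKp.to_le e).isNilpotent
        exact hns ((Group.isSolvable_iff_subgroup_quotient X).2 ⟨inferInstance, hquot X hXne⟩)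
      · ext g
        rw [SetLike.mem_coe, Subgroup.mem_subgroupOf, ← SetLike.mem_coe, hKe]
        constructor
        · rintro ⟨a, ha, b, hb, e⟩
          have hbX : b ∈ X := by
            have := mul_mem (inv_mem (hPAX ha)) g.2
            rwa [← e, inv_mul_cancel_left] at this
          exact ⟨⟨a, hPAX ha⟩, ha, ⟨b, hbX⟩, Core.mem_conj_smul_iff.mpr
            (Core.mem_conj_smul_iff.mp hb : (x : G)⁻¹ * b * x ∈ PB), Subtype.ext e⟩
        · rintro ⟨a, ha, b, hb, rfl⟩
          exact ⟨a, ha, b, Core.mem_conj_smul_iff.mpr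
            (Core.mem_conj_smul_iff.mp hb : x⁻¹ * b * x ∈ PB.subgroupOf X), rfl⟩
    have hne : ∀ {Q : Subgroup G}, Q ≤ X → Q ≠ ⊥ → Q.subgroupOf X ≠ ⊥ := fun hle hQ e =>
      hQ (le_bot_iff.mp (by
        rw [Subgroup.subgroupOf_eq_bot] at e
        exact fun y hy => e.le_bot ⟨hy, hle hy⟩))
    obtain ⟨M, hM, hMt, hle⟩ :=
      Core.kegel_lemma (G := X) _ _ (hne hPAX hPA) (hne hPBX hPB) hprod
    -- `M` would contain every conjugate of the part
    have habs : ∀ {A B : Subgroup G}, Group.IsNilpotent A → Group.IsNilpotent B →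
        (∀ g : G, ∃ a ∈ A, ∃ b ∈ B, g = a * b) →
        (part A ({p} : Set ℕ)).subgroupOf X ≤ M →
        Subgroup.normalClosure (part A ({p} : Set ℕ) : Set G) = X →
        False := by
      intro A B hA hB hAB hle hcl
      refine hMt (eq_top_iff.mpr fun x _ => ?_)
      have hsub' : Subgroup.normalClosure (part A ({p} : Set ℕ) : Set G) ≤ M.map X.subtype := by
        refine (Subgroup.closure_le _).mpr fun y hy => ?_
        obtain ⟨r, hr, hc⟩ := Group.mem_conjugatesOfSet_iff.mp hy
        obtain ⟨g, rfl⟩ := isConj_iff.mp hc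
        obtain ⟨a, ha, x', hx', e⟩ := hfull hA hB hAB X hXne g⁻¹
        have hr' : a⁻¹ * r * a ∈ part A ({p} : Set ℕ) :=
          ((Subgroup.mem_normalizer_iff'').mp (le_normalizer_part hA _ ha) r).mp hr
        have hr'X : a⁻¹ * r * a ∈ X := hcl ▸ Subgroup.le_normalClosure hr'
        refine ⟨(⟨x', hx'⟩ : X)⁻¹ * ⟨a⁻¹ * r * a, hr'X⟩ * ⟨x', hx'⟩, ?_, ?_⟩
        · simpa using hM.conj_mem _ (hle (x := ⟨a⁻¹ * r * a, hr'X⟩) hr') (⟨x', hx'⟩ : X)⁻¹
        · have e' : g = x'⁻¹ * a⁻¹ := by rw [← inv_inv g, e, mul_inv_rev]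
          simp [e', mul_assoc]
      have hx : (x : G) ∈ Subgroup.normalClosure (part A ({p} : Set ℕ) : Set G) := hcl.symm ▸ x.2
      obtain ⟨m, hm, hme⟩ := hsub' hx
      rwa [← Subtype.ext (show (m : G) = (x : G) from hme)]
    rcases hle with h | h
    · exact habs hA hB hAB h hX.symm
    · exact habs hB hA hBA h (hY.symm.trans hXY.symm)

/-- **Kegel–Wielandt**: a product of two nilpotent subgroups is solvable. -/
theorem isSolvable_of_products {A B : Subgroup G} (hA : Group.IsNilpotent A)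
    (hB : Group.IsNilpotent B) (hAB : ∀ g : G, ∃ a ∈ A, ∃ b ∈ B, g = a * b) :
    Group.IsSolvable G :=
  isSolvable_of_products_aux _ G A B le_rfl hA hB hAB

theorem exists_normal_ge_of_nilpotent [Group.IsNilpotent G] {A : Subgroup G} (hA : A ≠ ⊤) :
    ∃ N : Subgroup G, N.Normal ∧ N ≠ ⊤ ∧ A ≤ N := by
  rcases eq_top_or_exists_le_coatom A with h | ⟨M, hM, hAM⟩
  · exact absurd h hA
  · exact ⟨M, Subgroup.NormalizerCondition.normal_of_coatom M Group.normalizerCondition_of_isNilpotent hM, hM.1, hAM⟩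

theorem exists_normal_factor_aux : ∀ (n : ℕ) (G : Type u) [Group G] [Finite G] (A B : Subgroup G),
    Nat.card G ≤ n → Group.IsNilpotent A → Group.IsNilpotent B →
    (∀ g : G, ∃ a ∈ A, ∃ b ∈ B, g = a * b) → (A ≠ ⊤ ∨ B ≠ ⊤) →
    ∃ N : Subgroup G, N.Normal ∧ N ≠ ⊤ ∧ (A ≤ N ∨ B ≤ N) := by
  intro n
  induction n with
  | zero => intro G _ _ _ _ h; exact absurd h (by simp [Nat.card_pos.ne'])
  | succ n ih =>
    intro G _ _ A B hn hA hB hAB hprop
    by_cases hnil : Group.IsNilpotent G
    · rcases hprop with h | h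
      · obtain ⟨N, h1, h2, h3⟩ := exists_normal_ge_of_nilpotent h
        exact ⟨N, h1, h2, .inl h3⟩
      · obtain ⟨N, h1, h2, h3⟩ := exists_normal_ge_of_nilpotent h
        exact ⟨N, h1, h2, .inr h3⟩
    have hAt : A ≠ ⊤ := fun e => hnil (Core.isNilpotent_top_iff.mp (e ▸ hA))
    have hBt : B ≠ ⊤ := fun e => hnil (Core.isNilpotent_top_iff.mp (e ▸ hB))
    have hsol := isSolvable_of_products hA hB hAB
    -- a nontrivial normal abelian subgroup
    obtain ⟨N, hN, hNne, hNab⟩ : ∃ N : Subgroup G, N.Normal ∧ N ≠ ⊥ ∧ IsMulCommutative N := by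
      have : Nontrivial G := by
        by_contra h
        rw [not_nontrivial_iff_subsingleton] at h
        exact hnil inferInstance
      have hF := Core.fittingSubgroup_ne_bot (G := G)
      have hFn := Core.isNilpotent_fittingSubgroup G
      have : Nontrivial (Cfsg.fittingSubgroup G) := (Subgroup.nontrivial_iff_ne_bot _).mpr hF
      refine ⟨(Subgroup.center (Cfsg.fittingSubgroup G)).map (Cfsg.fittingSubgroup G).subtype,
        ?_, ?_, ?_⟩
      · have := Core.fittingSubgroup_normal G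
        exact Core.normal_map_subtype_of_characteristic _
      · rw [ne_eq, Subgroup.map_eq_bot_iff_of_injective _ (Subgroup.subtype_injective _)]
        exact Group.IsNilpotent.center_ne_bot _
      · refine ⟨⟨?_⟩⟩
        rintro ⟨_, a, ha, rfl⟩ ⟨_, b, hb, rfl⟩
        exact Subtype.ext (congrArg (Subgroup.subtype _) (Subgroup.mem_center_iff.mp hb a))
    obtain ⟨N₀, hN₀⟩ : ∃ N₀ : Subgroup G, Minimal (fun M : Subgroup G => M.Normal ∧ M ≠ ⊥ ∧ M ≤ N) N₀ :=
      exists_minimal_of_wellFoundedLT _ ⟨N, hN, hNne, le_rfl⟩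
    obtain ⟨hn0, hne0, hle0⟩ := hN₀.1
    set f := QuotientGroup.mk' N₀ with hf
    by_cases hq : A.map f ≠ ⊤ ∨ B.map f ≠ ⊤
    · have h2 := N₀.card_mul_index
      rw [Subgroup.index_eq_card] at h2
      have h1 : 1 < Nat.card N₀ := Subgroup.one_lt_card_iff_ne_bot N₀ |>.2 hne0
      have h3 : 0 < Nat.card (G ⧸ N₀) := Nat.card_pos
      obtain ⟨M, hM, hMt, hle⟩ := ih (G ⧸ N₀) (A.map f) (B.map f) (by nlinarith)
        (Core.isNilpotent_map hA _) (Core.isNilpotent_map hB _) (fun g => by
          obtain ⟨g, rfl⟩ := QuotientGroup.mk'_surjective N₀ g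
          obtain ⟨a, ha, b, hb, rfl⟩ := hAB g
          exact ⟨_, Subgroup.mem_map_of_mem _ ha, _, Subgroup.mem_map_of_mem _ hb, map_mul _ _ _⟩) hq
      refine ⟨M.comap f, hM.comap f, fun e => hMt ?_, hle.imp Subgroup.map_le_iff_le_comap.mp
        Subgroup.map_le_iff_le_comap.mp⟩
      rw [← Subgroup.map_comap_eq_self_of_surjective (QuotientGroup.mk'_surjective N₀) M, ← hf, e,
        Subgroup.map_top_of_surjective _ (QuotientGroup.mk'_surjective N₀)]
    push Not at hq
    exfalso
    -- now `N₀` is complemented by both `A` and `B`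
    have hcomp : ∀ {C : Subgroup G}, C.map f = ⊤ → C ≠ ⊤ →
        (∀ g : G, ∃ c ∈ C, ∃ x ∈ N₀, g = c * x) ∧ ∀ x ∈ N₀, x ∈ C → x = 1 := by
      intro C hC hCt
      have hdec : ∀ g : G, ∃ c ∈ C, ∃ x ∈ N₀, g = c * x := fun g => by
        have : f g ∈ C.map f := hC ▸ Subgroup.mem_top _
        obtain ⟨c, hc, he⟩ := this
        exact ⟨c, hc, c⁻¹ * g, QuotientGroup.eq.mp he, (mul_inv_cancel_left c g).symm⟩
      refine ⟨hdec, fun x hx hxC => ?_⟩
      have hnorm : (C ⊓ N₀).Normal := ⟨fun y hy g => by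
        obtain ⟨c, hc, v, hv, rfl⟩ := hdec g
        have e : c * v * y * (c * v)⁻¹ = c * y * c⁻¹ := by
          have hcomm : v * y = y * v := congrArg Subtype.val
            (hNab.is_comm.comm ⟨v, hle0 hv⟩ ⟨y, hle0 hy.2⟩)
          rw [mul_assoc c v y, hcomm]
          simp [mul_assoc]
        rw [e]
        exact ⟨C.mul_mem (C.mul_mem hc hy.1) (C.inv_mem hc), hn0.conj_mem _ hy.2 c⟩⟩
      by_contra hx1
      have hne : C ⊓ N₀ ≠ ⊥ := fun e => hx1 (Subgroup.mem_bot.mp (e ▸ (⟨hxC, hx⟩ : x ∈ C ⊓ N₀)))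
      have hle : N₀ ≤ C := fun y hy => (hN₀.2 ⟨hnorm, hne, inf_le_right.trans hle0⟩ inf_le_right hy).1
      refine hCt (eq_top_iff.mpr fun g _ => ?_)
      obtain ⟨c, hc, v, hv, rfl⟩ := hdec g
      exact mul_mem hc (hle hv)
    obtain ⟨hdA, hiA⟩ := hcomp hq.1 hAt
    obtain ⟨hdB, hiB⟩ := hcomp hq.2 hBt
    -- `N₀` is a `p`-group
    obtain ⟨p, hp, k, hk, hNp⟩ : ∃ p, p.Prime ∧ ∃ k, k ≠ 0 ∧ Nat.card N₀ = p ^ k := by
      obtain ⟨p, hp, hd⟩ := Nat.exists_prime_and_dvd (mt Subgroup.card_eq_one.mp hne0)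
      have := Fact.mk hp
      obtain ⟨x, hx⟩ := exists_prime_orderOf_dvd_card' (G := N₀) p hd
      letI : CommGroup N₀ := { (inferInstance : Group N₀) with
        mul_comm := fun a b => Subtype.ext
          (congrArg (fun t : N => (t : G)) (hNab.is_comm.comm ⟨a, hle0 a.2⟩ ⟨b, hle0 b.2⟩)) }
      let T : Subgroup G :=
        { carrier := {g | g ∈ N₀ ∧ g ^ p = 1}
          one_mem' := ⟨one_mem _, one_pow p⟩
          mul_mem' := fun {a b} ha hb => ⟨mul_mem ha.1 hb.1, by
            have := congrArg Subtype.val (mul_pow (⟨a, ha.1⟩ : N₀) ⟨b, hb.1⟩ p)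
            simpa [ha.2, hb.2] using this⟩
          inv_mem' := fun {a} ha => ⟨inv_mem ha.1, by rw [inv_pow, ha.2, inv_one]⟩ }
      have hT : T.Normal := ⟨fun g hg c => ⟨hn0.conj_mem g hg.1 c, by
        rw [conj_pow, hg.2, mul_one, mul_inv_cancel]⟩⟩
      have hTne : T ≠ ⊥ := fun e => by
        have hx' : (x : G) ∈ T := ⟨x.2, by rw [← hx, ← Subgroup.orderOf_coe, pow_orderOf_eq_one]⟩
        rw [e, Subgroup.mem_bot] at hx'
        rw [← Subgroup.orderOf_coe, hx', orderOf_one] at hx
        exact hp.ne_one hx.symm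
      have hle : N₀ ≤ T := hN₀.2 ⟨hT, hTne, fun g hg => hle0 hg.1⟩ (fun g hg => hg.1)
      have hpg : IsPGroup p N₀ := fun g => ⟨1, Subtype.ext (by simpa using (hle g.2).2)⟩
      obtain ⟨k, hk⟩ := IsPGroup.iff_card.mp hpg
      exact ⟨p, hp, k, fun e => by rw [e, pow_zero] at hk; rw [hk] at hd; exact hp.ne_one (Nat.dvd_one.mp hd), hk⟩
    have := Fact.mk hp
    -- the `p'`-parts are Hall subgroups
    have hidx : ∀ {C : Subgroup G}, (∀ g : G, ∃ c ∈ C, ∃ x ∈ N₀, g = c * x) →
        (∀ x ∈ N₀, x ∈ C → x = 1) → C.index = Nat.card N₀ := by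
      intro C h1 h2
      rw [← Core.relIndex_eq_index_of_forall h1]
      have hb : C ⊓ N₀ = ⊥ := (Subgroup.eq_bot_iff_forall _).mpr fun y hy => h2 y hy.2 hy.1
      rw [← Subgroup.inf_relIndex_right, hb, Subgroup.relIndex_bot_left]
    set HA := part A ({p}ᶜ : Set ℕ)
    set HB := part B ({p}ᶜ : Set ℕ)
    have hhall : ∀ {C : Subgroup G}, Group.IsNilpotent C → C.index = Nat.card N₀ →
        IsPiHall ({p}ᶜ : Set ℕ) (part C ({p}ᶜ : Set ℕ)) := by
      intro C hC hi
      rw [Core.isPiHall_iff, compl_compl]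
      obtain ⟨c, hc, hCc⟩ := card_eq_part_mul hC ({p}ᶜ : Set ℕ)
      rw [compl_compl] at hc
      refine ⟨isPiNat_card_part C _, ?_⟩
      have e : (part C ({p}ᶜ : Set ℕ)).index = c * C.index := by
        refine Nat.eq_of_mul_eq_mul_left (Nat.card_pos (α := part C ({p}ᶜ : Set ℕ))) ?_
        rw [Subgroup.card_mul_index, ← mul_assoc, ← hCc, Subgroup.card_mul_index]
      rw [e, hi, hNp]
      exact hc.mul (Core.isPiNat_prime_pow hp (Set.mem_singleton p) k)
    obtain ⟨g, hg⟩ := Core.exists_conj_eq_of_isPiHall_of_isSolvable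
      (hhall hA (hidx hdA hiA)) (hhall hB (hidx hdB hiB))
    -- `HB` is normalised by `G = A^g B`
    have hAB' := Core.forall_exists_mul_conj_smul hAB g 1
    rw [map_one, one_smul] at hAB'
    have hnormal : ∀ y : G, y ∈ Subgroup.normalizer (HB : Set G) := by
      intro y
      obtain ⟨a, ha, b, hb, rfl⟩ := hAB' y
      refine mul_mem ?_ (le_normalizer_part hB _ hb)
      rw [Core.mem_conj_smul_iff] at ha
      refine mem_normalizer_of_forall fun v hv => ?_
      have hv' : v ∈ MulAut.conj g • HA := hg.symm ▸ hv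
      have := ((Subgroup.mem_normalizer_iff).mp (le_normalizer_part hA _ ha) _).mp
        (Core.mem_conj_smul_iff.mp hv')
      show a * v * a⁻¹ ∈ HB
      rw [show HB = MulAut.conj g • HA from hg.symm, Core.mem_conj_smul_iff]
      simpa [mul_assoc] using this
    have hHBn : HB.Normal := Subgroup.normalizer_eq_top_iff.mp (eq_top_iff.mpr fun y _ => hnormal y)
    have hHA : HA = HB := by
      rw [← Core.conj_inv_smul_smul g HA, show MulAut.conj g • HA = HB from hg,
        Core.conj_smul_normal]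
    set P := part A ({p} : Set ℕ) ⊔ N₀ with hP
    have hN₀p : IsPGroup p N₀ := IsPGroup.of_card hNp
    have hPp : IsPGroup p P := (part_isPGroup hp).to_sup_of_normal_right hN₀p
    have hcN : ∀ v ∈ HB, ∀ y ∈ N₀, Commute v y := by
      intro v hv y hy
      refine Subgroup.commute_of_normal_of_disjoint _ _ hHBn hn0 (disjoint_iff.mpr ?_) v y hv hy
      refine (Subgroup.eq_bot_iff_forall _).mpr fun y hy => ?_
      exact hiB y hy.2 (part_le B _ hy.1)
    refine hnil (Core.isNilpotent_of_commute_sup (A := HB) (B := P)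
      (Core.isNilpotent_of_le (part_le B _) hB) hPp.isNilpotent (fun v hv y hy => ?_) ?_)
    · have hle : P ≤ Subgroup.centralizer {v} := by
        refine sup_le (fun w hw => ?_) (fun w hw => ?_)
        · exact Subgroup.mem_centralizer_singleton_iff.mpr (part_commute hA hw (hHA.ge hv)).eq
        · exact Subgroup.mem_centralizer_singleton_iff.mpr (hcN v hv w hw).eq.symm
      exact (Subgroup.mem_centralizer_singleton_iff.mp (hle hy)).symm
    · refine eq_top_iff.mpr fun y _ => ?_
      obtain ⟨c, hc, x, hx, rfl⟩ := hdA y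
      refine mul_mem (le_of_parts hA (σ := ({p} : Set ℕ)) ?_ ?_ hc)
        (Subgroup.mem_sup_right (Subgroup.mem_sup_right hx))
      · exact le_sup_left.trans (le_sup_right (a := HB) (b := P))
      · exact hHA.le.trans le_sup_left

end Cfsg.Agent.Screen.KW

namespace Cfsg.Agent.Screen.KW

open scoped Pointwise
open Cfsg Cfsg.Agent
open Cfsg.Agent.Core (IsPiNat)

/-- **Kegel**: a proper factorisation by nilpotent subgroups has a factor in a proper normal subgroup. -/
theorem exists_normal_factor {G : Type*} [Group G] [Finite G] {A B : Subgroup G}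
    (hA : Group.IsNilpotent A) (hB : Group.IsNilpotent B)
    (hAB : ∀ g : G, ∃ a ∈ A, ∃ b ∈ B, g = a * b) (h : A ≠ ⊤ ∨ B ≠ ⊤) :
    ∃ N : Subgroup G, N.Normal ∧ N ≠ ⊤ ∧ (A ≤ N ∨ B ≤ N) :=
  exists_normal_factor_aux _ G A B le_rfl hA hB hAB h

theorem part_singleton_eq {G : Type*} [Group G] [Finite G] {A : Subgroup G}
    (hA : Group.IsNilpotent A) {p : ℕ} [hp : Fact p.Prime] (P : Sylow p A) :
    (P : Subgroup A).map A.subtype = part A ({p} : Set ℕ) := by
  have h := Core.pCore_eq_piCore p A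
  rw [part, ← h, ← Core.pCore_eq_sylow P]

/-- In a product of nilpotent subgroups of coprime orders the Sylow subgroups of the factors
permute. -/
theorem Fac.sylow_permute {G : Type*} [Group G] [Finite G] {A B : Subgroup G} (F : Fac A B)
    {p q : ℕ} [hp : Fact p.Prime] [hq : Fact q.Prime] (P : Sylow p A) (Q : Sylow q B) :
    ∃ S : Subgroup G, (S : Set G) = (((P : Subgroup A).map A.subtype : Subgroup G) : Set G) *
      (((Q : Subgroup B).map B.subtype : Subgroup G) : Set G) := by
  rw [part_singleton_eq F.nilA P, part_singleton_eq F.nilB Q]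
  have hbot : ∀ {C : Subgroup G} {r : ℕ}, Group.IsNilpotent C → ¬ r ∣ Nat.card C →
      part C ({r} : Set ℕ) = ⊥ := by
    intro C r _ h
    by_contra hne
    obtain ⟨s, hs, hsr, hsd⟩ := exists_prime_of_ne_bot hne
    exact h (Set.mem_singleton_iff.mp hsr ▸ hsd)
  by_cases hpA : p ∣ Nat.card A
  swap
  · exact ⟨part B ({q} : Set ℕ), by simp [hbot F.nilA hpA]⟩
  by_cases hqB : q ∣ Nat.card B
  swap
  · exact ⟨part A ({p} : Set ℕ), by simp [hbot F.nilB hqB]⟩
  have := F.isSolvable
  obtain ⟨K, -, hK⟩ := exists_part_mul_of_solvable ({p, q} : Set ℕ) F.nilA F.nilB F.mul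
  have e : ∀ {C : Subgroup G} {r s : ℕ}, Group.IsNilpotent C → ¬ s ∣ Nat.card C →
      part C ({r, s} : Set ℕ) = part C ({r} : Set ℕ) := by
    intro C r s hC hs
    ext x
    rw [mem_part_iff hC, mem_part_iff hC]
    refine ⟨fun ⟨hx, ho⟩ => ⟨hx, isPiNat_mono ho (Subgroup.orderOf_dvd_natCard C hx)
      fun t _ hmem hd => ?_⟩, fun ⟨hx, ho⟩ => ⟨hx, ho.mono (by simp)⟩⟩
    rcases hmem with h | h
    · exact h
    · exact absurd (Set.mem_singleton_iff.mp h ▸ hd) hs
  refine ⟨K, ?_⟩
  rw [hK, e F.nilA (F.symm.prime_not_dvd hq.out hqB), Set.pair_comm p q,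
    e F.nilB (F.prime_not_dvd hp.out hpA)]

/-- A group with an abelian complement to a Sylow 2-subgroup. -/
theorem exists_complement_of_hall {G : Type*} [Group G] [Finite G] {D : Subgroup G}
    (hD : IsPiHall ({2}ᶜ : Set ℕ) D) (P : Sylow 2 G) :
    Subgroup.IsComplement' (P : Subgroup G) D := by
  obtain ⟨hd, k, hk⟩ : ¬ 2 ∣ Nat.card D ∧ ∃ k, D.index = 2 ^ k := by
    have h := Core.isPiHall_iff.mp hD
    rw [compl_compl] at h
    exact ⟨(Core.isPiNat_compl_singleton_iff Nat.prime_two).mp h.1,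
      (Core.isPiNat_singleton_iff Nat.prime_two Subgroup.index_ne_zero_of_finite).mp h.2⟩
  have hc : (Nat.card (P : Subgroup G)).Coprime (Nat.card D) := by
    obtain ⟨j, hj⟩ := IsPGroup.iff_card.mp P.2
    rw [hj]
    exact ((Nat.Prime.coprime_iff_not_dvd Nat.prime_two).mpr hd).pow_left j
  refine Subgroup.isComplement'_of_coprime ?_ hc
  have hP : Nat.card (P : Subgroup G) = D.index := by
    rw [Sylow.card_eq_multiplicity, ← D.card_mul_index, hk,
      Nat.factorization_mul Nat.card_pos.ne' (pow_ne_zero k two_ne_zero), Finsupp.add_apply,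
      Nat.factorization_eq_zero_of_not_dvd hd, zero_add, Nat.prime_two.factorization_pow,
      Finsupp.single_eq_same]
  rw [hP, mul_comm, D.card_mul_index]

end Cfsg.Agent.Screen.KW
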