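import Cfsg.Agent.Screen.KegelWielandt.Parts
import Cfsg.Agent.Core.MinimalNormal

/-! Factorisations by nilpotent subgroups of coprime orders: the setting of a minimal
counterexample to Wielandt's theorem and its first properties. -/

set_option autoImplicit false
set_option linter.unusedSectionVars false

namespace Cfsg.Agent.Screen.KW

open scoped Pointwise
open Cfsg Cfsg.Agent
open Cfsg.Agent.Core (IsPiNat)

variable {G : Type*} [Group G] [Finite G]

/-- A factorisation by nilpotent subgroups of coprime orders. -/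
structure Fac (A B : Subgroup G) : Prop where
  nilA : Group.IsNilpotent A
  nilB : Group.IsNilpotent B
  cop : (Nat.card A).Coprime (Nat.card B)
  mul : ∀ g : G, ∃ a ∈ A, ∃ b ∈ B, g = a * b

/-- A subgroup is factorised. -/
def Splits (A B H : Subgroup G) : Prop :=
  ∀ h ∈ H, ∃ a ∈ A, a ∈ H ∧ ∃ b ∈ B, b ∈ H ∧ h = a * b

theorem mem_normalizer_of_forall {S : Subgroup G} {g : G} (h : ∀ y ∈ S, g * y * g⁻¹ ∈ S) :
    g ∈ Subgroup.normalizer (S : Set G) := by
  have hle : S.map (MulAut.conj g).toMonoidHom ≤ S := by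
    rintro _ ⟨y, hy, rfl⟩
    exact h y hy
  rw [Subgroup.mem_normalizer_iff_map_conj_eq]
  exact Subgroup.eq_of_le_of_card_ge hle
    (by rw [Subgroup.card_map_of_injective (MulAut.conj g).injective])

theorem le_normalizer_of_commute {S T : Subgroup G} (h : ∀ y ∈ T, ∀ x ∈ S, Commute x y) :
    T ≤ Subgroup.normalizer (S : Set G) := fun y hy =>
  mem_normalizer_of_forall fun x hx => by
    rwa [← (h y hy x hx).eq, mul_inv_cancel_right]

theorem exists_prime_pow {g : G} (hg : g ≠ 1) :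
    ∃ p, p.Prime ∧ p ∣ orderOf g ∧ ∃ n : ℕ, orderOf (g ^ n) = p := by
  obtain ⟨p, hp, hd⟩ := Nat.exists_prime_and_dvd (mt orderOf_eq_one_iff.mp hg)
  exact ⟨p, hp, hd, orderOf g / p, orderOf_pow_orderOf_div (orderOf_pos g).ne' hd⟩

theorem isPiNat_mono {σ τ : Set ℕ} {n m : ℕ} (h : IsPiNat σ n) (hd : n ∣ m)
    (hsub : ∀ q, q.Prime → q ∈ σ → q ∣ m → q ∈ τ) : IsPiNat τ n :=
  fun q hq hqn => hsub q hq (h q hq hqn) (hqn.trans hd)

theorem Splits.symm_of {A B H : Subgroup G} (h : Splits A B H) : Splits B A H := by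
  intro x hx
  obtain ⟨a, ha, haH, b, hb, hbH, e⟩ := h x⁻¹ (inv_mem hx)
  exact ⟨b⁻¹, inv_mem hb, inv_mem hbH, a⁻¹, inv_mem ha, inv_mem haH,
    by rw [← inv_inv x, e, mul_inv_rev]⟩

namespace Fac

variable {A B : Subgroup G} (F : Fac A B)
include F

theorem symm : Fac B A :=
  ⟨F.nilB, F.nilA, F.cop.symm, Core.forall_exists_mul_symm F.mul⟩

theorem eq_one {x : G} (ha : x ∈ A) (hb : x ∈ B) : x = 1 :=
  orderOf_eq_one_iff.mp (Nat.eq_one_of_dvd_coprimes F.cop
    (Subgroup.orderOf_dvd_natCard A ha) (Subgroup.orderOf_dvd_natCard B hb))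

theorem card_mul : Nat.card A * Nat.card B = Nat.card G := by
  have hbot : A ⊓ B = ⊥ := Subgroup.eq_bot_iff_forall _ |>.mpr fun x hx => F.eq_one hx.1 hx.2
  have h := Core.card_mul_relIndex (inf_le_right : A ⊓ B ≤ B)
  rw [Subgroup.inf_relIndex_right, hbot, Subgroup.card_bot, one_mul,
    Core.relIndex_eq_index_of_forall F.mul] at h
  rw [← h, Subgroup.card_mul_index]

theorem prime_not_dvd {p : ℕ} (hp : p.Prime) (h : p ∣ Nat.card A) : ¬ p ∣ Nat.card B :=
  fun h' => hp.ne_one (Nat.eq_one_of_dvd_coprimes F.cop h h')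

theorem splits_of_le_left {H : Subgroup G} (hA : A ≤ H) : Splits A B H := by
  intro h hh
  obtain ⟨a, ha, b, hb, rfl⟩ := F.mul h
  exact ⟨a, ha, hA ha, b, hb, by simpa using mul_mem (inv_mem (hA ha)) hh, rfl⟩

/-- A normal subgroup of order prime to `|B|` lies in `A`. -/
theorem le_of_normal {N : Subgroup G} [N.Normal] (h : (Nat.card N).Coprime (Nat.card B)) :
    N ≤ A := by
  intro n hn
  obtain ⟨a, ha, b, hb, rfl⟩ := F.mul n
  have hS : b ∈ A ⊔ N := by
    simpa using mul_mem (inv_mem (Subgroup.mem_sup_left (T := N) ha))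
      (Subgroup.mem_sup_right (S := A) hn)
  have hb1 : b = 1 := orderOf_eq_one_iff.mp <| Nat.eq_one_of_dvd_coprimes (Nat.Coprime.mul_left F.cop h)
    ((Subgroup.orderOf_dvd_natCard _ hS).trans (Core.card_sup_dvd_mul A N))
    (Subgroup.orderOf_dvd_natCard B hb)
  rw [hb1, mul_one]
  exact ha

/-- Elements normalising `A` of order prime to `|B|` lie in `A`. -/
theorem mem_of_normalizer {g : G} (hg : g ∈ Subgroup.normalizer (A : Set G))
    (h : (orderOf g).Coprime (Nat.card B)) : g ∈ A := by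
  obtain ⟨a, ha, b, hb, rfl⟩ := F.mul g
  set M := Subgroup.normalizer (A : Set G) with hM
  have haM : a ∈ M := Subgroup.le_normalizer ha
  have hbM : b ∈ M := by simpa using mul_mem (inv_mem haM) hg
  haveI : (A.subgroupOf M).Normal := Subgroup.normal_subgroupOf_of_le_normalizer le_rfl
  have hS : (⟨b, hbM⟩ : M) ∈ Subgroup.zpowers (⟨a * b, hg⟩ : M) ⊔ A.subgroupOf M := by
    have e : (⟨b, hbM⟩ : M) = (⟨a, haM⟩ : M)⁻¹ * ⟨a * b, hg⟩ :=
      Subtype.ext (inv_mul_cancel_left a b).symm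
    rw [e]
    exact mul_mem (inv_mem (Subgroup.mem_sup_right (show (⟨a, haM⟩ : M) ∈ A.subgroupOf M from ha)))
      (Subgroup.mem_sup_left (Subgroup.mem_zpowers _))
  have h1 := (Subgroup.orderOf_dvd_natCard _ hS).trans (Core.card_sup_dvd_mul _ _)
  rw [Nat.card_zpowers, Subgroup.orderOf_mk, Subgroup.orderOf_mk,
    Core.card_subgroupOf Subgroup.le_normalizer] at h1
  have hb1 : b = 1 := orderOf_eq_one_iff.mp <| Nat.eq_one_of_dvd_coprimes
    (Nat.Coprime.mul_left h F.cop) h1 (Subgroup.orderOf_dvd_natCard B hb)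
  rw [hb1, mul_one]
  exact ha

theorem restrict_of {K PA PB : Subgroup G} (hA : PA ≤ A) (hB : PB ≤ B) (hAK : PA ≤ K)
    (hBK : PB ≤ K) (hK : ∀ g ∈ K, ∃ a ∈ PA, ∃ b ∈ PB, g = a * b) :
    Fac (PA.subgroupOf K) (PB.subgroupOf K) where
  nilA := Core.isNilpotent_congr (Subgroup.subgroupOfEquivOfLe hAK).symm
    (Core.isNilpotent_of_le hA F.nilA)
  nilB := Core.isNilpotent_congr (Subgroup.subgroupOfEquivOfLe hBK).symm
    (Core.isNilpotent_of_le hB F.nilB)
  cop := by
    rw [Core.card_subgroupOf hAK, Core.card_subgroupOf hBK]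
    exact (F.cop.coprime_dvd_left (Subgroup.card_dvd_of_le hA)).coprime_dvd_right
      (Subgroup.card_dvd_of_le hB)
  mul := fun g => by
    obtain ⟨a, ha, b, hb, e⟩ := hK g g.2
    exact ⟨⟨a, hAK ha⟩, ha, ⟨b, hBK hb⟩, hb, Subtype.ext e⟩

theorem restrict {H : Subgroup G} (hH : Splits A B H) :
    Fac ((A ⊓ H).subgroupOf H) ((B ⊓ H).subgroupOf H) :=
  F.restrict_of inf_le_left inf_le_left inf_le_right inf_le_right fun g hg => by
    obtain ⟨a, ha, haH, b, hb, hbH, e⟩ := hH g hg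
    exact ⟨a, ⟨ha, haH⟩, b, ⟨hb, hbH⟩, e⟩

/-- In a solvable factorised subgroup the parts of the factors permute. -/
theorem exists_product {H : Subgroup G} (hH : Splits A B H) (hs : Group.IsSolvable H)
    (ρ : Set ℕ) : ∃ K : Subgroup G, K ≤ H ∧ part (A ⊓ H) ρ ≤ K ∧ part (B ⊓ H) ρ ≤ K ∧
      ∀ g ∈ K, ∃ a ∈ part (A ⊓ H) ρ, ∃ b ∈ part (B ⊓ H) ρ, g = a * b := by
  have F' := F.restrict hH
  obtain ⟨K, -, hK⟩ := exists_part_mul_of_solvable ρ F'.nilA F'.nilB F'.mul
  have key : ∀ {C : Subgroup G}, Group.IsNilpotent ↥(C ⊓ H) → Group.IsNilpotent ↥((C ⊓ H).subgroupOf H) →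
      ∀ x : H, x ∈ part ((C ⊓ H).subgroupOf H) ρ ↔ (x : G) ∈ part (C ⊓ H) ρ := by
    intro C h1 h2 x
    rw [mem_part_iff h1, mem_part_iff h2, Subgroup.mem_subgroupOf, Subgroup.orderOf_coe]
  have kA := key (C := A) (Core.isNilpotent_of_le inf_le_left F.nilA) F'.nilA
  have kB := key (C := B) (Core.isNilpotent_of_le inf_le_left F.nilB) F'.nilB
  refine ⟨K.map H.subtype, Subgroup.map_subtype_le _, fun x hx => ?_, fun x hx => ?_, ?_⟩
  · have hxH : x ∈ H := (part_le _ _ hx).2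
    refine ⟨⟨x, hxH⟩, ?_, rfl⟩
    rw [hK]
    exact ⟨⟨x, hxH⟩, (kA _).mpr hx, 1, one_mem _, mul_one _⟩
  · have hxH : x ∈ H := (part_le _ _ hx).2
    refine ⟨⟨x, hxH⟩, ?_, rfl⟩
    rw [hK]
    exact ⟨1, one_mem _, ⟨x, hxH⟩, (kB _).mpr hx, one_mul _⟩
  · rintro _ ⟨g, hg, rfl⟩
    rw [hK] at hg
    obtain ⟨a, ha, b, hb, rfl⟩ := hg
    exact ⟨a, (kA a).mp ha, b, (kB b).mp hb, rfl⟩

/-- The normal `p`-subgroups of a factorised subgroup lie in one of the factors. -/
theorem core_le {K PA PB : Subgroup G} (hA : PA ≤ A) (hB : PB ≤ B) (hAK : PA ≤ K)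
    (hBK : PB ≤ K) (hK : ∀ g ∈ K, ∃ a ∈ PA, ∃ b ∈ PB, g = a * b) {t : ℕ} (ht : t.Prime)
    (h : ¬ t ∣ Nat.card B) : (Cfsg.pCore t K).map K.subtype ≤ PA := by
  have := Fact.mk ht
  obtain ⟨k, hk⟩ := Core.card_pCore_eq_pow t K
  have F' := F.restrict_of hA hB hAK hBK hK
  have hle := F'.le_of_normal (N := Cfsg.pCore t K) (by
    rw [hk, Core.card_subgroupOf hBK]
    exact ((ht.coprime_iff_not_dvd.mpr h).coprime_dvd_right (Subgroup.card_dvd_of_le hB)).pow_left k)
  rintro _ ⟨x, hx, rfl⟩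
  exact hle hx

end Fac

theorem le_normalizer_map_subtype {K : Subgroup G} {R : Subgroup K} [R.Normal] :
    K ≤ Subgroup.normalizer (R.map K.subtype : Set G) := fun k hk =>
  mem_normalizer_of_forall fun y hy => by
    obtain ⟨y, hy, rfl⟩ := hy
    exact ⟨⟨k, hk⟩ * y * ⟨k, hk⟩⁻¹, (inferInstance : R.Normal).conj_mem y hy _, rfl⟩

/-- A nontrivial solvable factorised subgroup has a nontrivial normal prime power subgroup inside
one factor. -/
theorem Fac.exists_core {A B : Subgroup G} (F : Fac A B) {K PA PB : Subgroup G} (hA : PA ≤ A)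
    (hB : PB ≤ B) (hAK : PA ≤ K) (hBK : PB ≤ K) (hK : ∀ g ∈ K, ∃ a ∈ PA, ∃ b ∈ PB, g = a * b)
    (hne : K ≠ ⊥) (hs : Group.IsSolvable K) :
    ∃ (t : ℕ) (R : Subgroup G), t.Prime ∧ IsPGroup t R ∧ R ≠ ⊥ ∧
      K ≤ Subgroup.normalizer (R : Set G) ∧ (R ≤ PA ∨ R ≤ PB) := by
  have : Nontrivial K := (Subgroup.nontrivial_iff_ne_bot K).mpr hne
  have h1 := Core.fittingSubgroup_ne_bot (G := K)
  rw [ne_eq, Core.fittingSubgroup_eq_bot_iff] at h1
  push Not at h1
  obtain ⟨t, ht, htne⟩ := h1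
  refine ⟨t, _, ht, (Core.isPGroup_pCore t K).map K.subtype, ?_, le_normalizer_map_subtype, ?_⟩
  · rwa [ne_eq, Subgroup.map_eq_bot_iff_of_injective _ K.subtype_injective]
  by_cases h : t ∣ Nat.card B
  · exact .inr (F.symm.core_le hB hA hBK hAK (fun g hg => by
      obtain ⟨a, ha, b, hb, e⟩ := hK g⁻¹ (inv_mem hg)
      exact ⟨b⁻¹, inv_mem hb, a⁻¹, inv_mem ha, by rw [← inv_inv g, e, mul_inv_rev]⟩) ht
      (F.symm.prime_not_dvd ht h))
  · exact .inl (F.core_le hA hB hAK hBK hK ht h)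

/-- A minimal counterexample to Wielandt's theorem. -/
structure Min (A B : Subgroup G) : Prop where
  fac : Fac A B
  simple : IsSimpleGroup G
  center : Subgroup.center G = ⊥
  solv : ∀ H : Subgroup G, H ≠ ⊤ → Splits A B H → Group.IsSolvable H
  twoA : ∀ p : ℕ, ∃ q : ℕ, q.Prime ∧ q ≠ p ∧ q ∣ Nat.card A
  twoB : ∀ p : ℕ, ∃ q : ℕ, q.Prime ∧ q ≠ p ∧ q ∣ Nat.card B

namespace Min

variable {A B : Subgroup G} (M : Min A B)
include M

theorem symm : Min B A :=
  ⟨M.fac.symm, M.simple, M.center, fun H hH h => M.solv H hH h.symm_of, M.twoB, M.twoA⟩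

theorem part_compl_ne (p : ℕ) : part A ({p}ᶜ : Set ℕ) ≠ ⊥ := by
  obtain ⟨q, hq, hqp, hd⟩ := M.twoA p
  exact part_ne_bot M.fac.nilA hq hqp hd

theorem left_ne_top : A ≠ ⊤ := fun h => by
  obtain ⟨q, hq, -, hd⟩ := M.twoB 0
  refine M.fac.prime_not_dvd hq ?_ hd
  rw [h, Subgroup.card_top]
  exact hd.trans (Subgroup.card_subgroup_dvd_card B)

theorem normalizer_ne_top {R : Subgroup G} (h1 : R ≠ ⊥) (h2 : R ≠ ⊤) :
    Subgroup.normalizer (R : Set G) ≠ ⊤ := fun h => by
  rcases M.simple.eq_bot_or_eq_top_of_normal R (Subgroup.normalizer_eq_top_iff.mp h) with h' | h'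
  · exact h1 h'
  · exact h2 h'

theorem ne_top_of_le {R : Subgroup G} (h : R ≤ A) : R ≠ ⊤ :=
  fun e => M.left_ne_top (top_le_iff.mp (e ▸ h))

/-- A nontrivial subgroup of `B` normalised by `A` is impossible. -/
theorem closure_absurd {R : Subgroup G} (hR : R ≤ B) (hne : R ≠ ⊥)
    (hn : A ≤ Subgroup.normalizer (R : Set G)) : False := by
  have hle : Subgroup.normalClosure (R : Set G) ≤ B := by
    refine (Subgroup.closure_le _).mpr fun y hy => ?_
    obtain ⟨r, hr, hc⟩ := Group.mem_conjugatesOfSet_iff.mp hy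
    obtain ⟨g, rfl⟩ := isConj_iff.mp hc
    obtain ⟨b, hb, a, ha, rfl⟩ := M.fac.symm.mul g
    have h' := hR (((Subgroup.mem_normalizer_iff).mp (hn ha) r).mp hr)
    rw [SetLike.mem_coe, show b * a * r * (b * a)⁻¹ = b * (a * r * a⁻¹) * b⁻¹ by simp [mul_assoc]]
    exact mul_mem (mul_mem hb h') (inv_mem hb)
  rcases M.simple.eq_bot_or_eq_top_of_normal _ Subgroup.normalClosure_normal with h | h
  · exact hne (le_bot_iff.mp (Subgroup.le_normalClosure.trans h.le))
  · exact M.symm.left_ne_top (top_le_iff.mp (h ▸ hle))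

/-- A nontrivial subgroup of `A` cannot be normalised by `A` and a central element of `B`. -/
theorem normalizer_absurd {R : Subgroup G} (hR : R ≤ A) (hne : R ≠ ⊥)
    (hn : A ≤ Subgroup.normalizer (R : Set G)) {z : G} (hz1 : z ≠ 1)
    (hzc : ∀ b ∈ B, Commute z b) (hz : z ∈ Subgroup.normalizer (R : Set G)) : False := by
  refine M.normalizer_ne_top hne (M.ne_top_of_le hR) ?_
  have hle : Subgroup.normalClosure ({z} : Set G) ≤ Subgroup.normalizer (R : Set G) := by
    refine (Subgroup.closure_le _).mpr fun y hy => ?_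
    obtain ⟨z', hz', hc⟩ := Group.mem_conjugatesOfSet_iff.mp hy
    rw [Set.mem_singleton_iff.mp hz'] at hc
    obtain ⟨g, rfl⟩ := isConj_iff.mp hc
    obtain ⟨a, ha, b, hb, rfl⟩ := M.fac.mul g
    rw [SetLike.mem_coe, show a * b * z * (a * b)⁻¹ = a * (b * z * b⁻¹) * a⁻¹ by simp [mul_assoc],
      ← (hzc b hb).eq, mul_inv_cancel_right]
    exact mul_mem (mul_mem (hn ha) hz) (inv_mem (hn ha))
  rcases M.simple.eq_bot_or_eq_top_of_normal _ Subgroup.normalClosure_normal with h | h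
  · exact absurd (Subgroup.mem_bot.mp (h ▸ Subgroup.subset_normalClosure (Set.mem_singleton z))) hz1
  · exact top_le_iff.mp (h ▸ hle)

/-- The normaliser of the join of normal subgroups of the factors is factorised. -/
theorem splits_normalizer {A1 B1 : Subgroup G} (hA : A ≤ Subgroup.normalizer (A1 : Set G))
    (hB : B ≤ Subgroup.normalizer (B1 : Set G)) :
    Splits A B (Subgroup.normalizer ((A1 ⊔ B1 : Subgroup G) : Set G)) := by
  intro h hh
  obtain ⟨a, ha, b, hb, rfl⟩ := M.fac.mul h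
  have haN : a ∈ Subgroup.normalizer ((A1 ⊔ B1 : Subgroup G) : Set G) := by
    refine mem_normalizer_of_forall ?_
    have hle : A1 ⊔ B1 ≤ (A1 ⊔ B1).comap (MulAut.conj a).toMonoidHom := by
      refine sup_le (fun x hx => Subgroup.mem_sup_left
        (((Subgroup.mem_normalizer_iff).mp (hA ha) x).mp hx)) (fun x hx => ?_)
      have h1 : b⁻¹ * x * b ∈ A1 ⊔ B1 :=
        Subgroup.mem_sup_right (((Subgroup.mem_normalizer_iff'').mp (hB hb) x).mp hx)
      have h2 := ((Subgroup.mem_normalizer_iff).mp hh _).mp h1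
      rw [Subgroup.mem_comap]
      simpa [mul_assoc] using h2
    exact fun y hy => hle hy
  exact ⟨a, ha, haN, b, hb, by simpa using mul_mem (inv_mem haN) hh, rfl⟩

/-- No proper subgroup contains nontrivial parts of both factors. -/
theorem not_both {σ τ : Set ℕ} (hσ : part A σ ≠ ⊥) (hτ : part B τ ≠ ⊥) {H : Subgroup G}
    (hH : H ≠ ⊤) (hAH : part A σ ≤ H) (hBH : part B τ ≤ H) : False := by
  set S := part A σ ⊔ part B τ with hS
  set N := Subgroup.normalizer (S : Set G) with hN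
  have hNt : N ≠ ⊤ := M.normalizer_ne_top (fun e => hσ (le_bot_iff.mp (le_sup_left.trans e.le)))
    (fun e => hH (top_le_iff.mp (e ▸ sup_le hAH hBH)))
  have hsp : Splits A B N :=
    M.splits_normalizer (le_normalizer_part M.fac.nilA σ) (le_normalizer_part M.fac.nilB τ)
  have hsolv := M.solv N hNt hsp
  set ρ : Set ℕ := {q | (q ∈ σ ∧ q ∣ Nat.card A) ∨ (q ∈ τ ∧ q ∣ Nat.card B)} with hρ
  have eA : part (A ⊓ N) ρ = part A σ := by
    ext x
    rw [mem_part_iff (Core.isNilpotent_of_le inf_le_left M.fac.nilA), mem_part_iff M.fac.nilA]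
    constructor
    · rintro ⟨hx, hxo⟩
      refine ⟨hx.1, isPiNat_mono hxo (Subgroup.orderOf_dvd_natCard A hx.1) fun q hq hmem hd => ?_⟩
      rcases hmem with h | h
      · exact h.1
      · exact absurd h.2 (M.fac.prime_not_dvd hq hd)
    · rintro ⟨hx, hxo⟩
      refine ⟨⟨hx, Subgroup.le_normalizer (Subgroup.mem_sup_left
        ((mem_part_iff M.fac.nilA).mpr ⟨hx, hxo⟩))⟩,
        isPiNat_mono hxo (Subgroup.orderOf_dvd_natCard A hx) fun q _ hmem hd => .inl ⟨hmem, hd⟩⟩
  have eB : part (B ⊓ N) ρ = part B τ := by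
    ext x
    rw [mem_part_iff (Core.isNilpotent_of_le inf_le_left M.fac.nilB), mem_part_iff M.fac.nilB]
    constructor
    · rintro ⟨hx, hxo⟩
      refine ⟨hx.1, isPiNat_mono hxo (Subgroup.orderOf_dvd_natCard B hx.1) fun q hq hmem hd => ?_⟩
      rcases hmem with h | h
      · exact absurd hd (M.fac.prime_not_dvd hq h.2)
      · exact h.1
    · rintro ⟨hx, hxo⟩
      refine ⟨⟨hx, Subgroup.le_normalizer (Subgroup.mem_sup_right
        ((mem_part_iff M.fac.nilB).mpr ⟨hx, hxo⟩))⟩,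
        isPiNat_mono hxo (Subgroup.orderOf_dvd_natCard B hx) fun q _ hmem hd => .inr ⟨hmem, hd⟩⟩
  obtain ⟨K, hKN, hAK, hBK, hK⟩ := M.fac.exists_product hsp hsolv ρ
  rw [eA] at hAK hK
  rw [eB] at hBK hK
  have hKs : Group.IsSolvable K := solvable_of_solvable_injective (f := Subgroup.inclusion hKN) (Subgroup.inclusion_injective hKN)
  obtain ⟨t, R, -, -, hRne, hKR, hR⟩ := M.fac.exists_core (part_le A σ) (part_le B τ) hAK hBK hK
    (fun e => hσ (le_bot_iff.mp (e ▸ hAK))) hKs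
  rcases hR with hR | hR
  · obtain ⟨q, hq, hqτ, hqd⟩ := exists_prime_of_ne_bot hτ
    obtain ⟨z, hzB, hzo, hzc⟩ := exists_central M.fac.nilB hq hqd
    refine M.normalizer_absurd (hR.trans (part_le A σ)) hRne
      (le_normalizer_of_le_part M.fac.nilA hR (hAK.trans hKR)) ?_ hzc
      (hKR (hBK ((mem_part_iff M.fac.nilB).mpr ⟨hzB, by rw [hzo]; exact (Core.isPiNat_prime_iff hq).mpr hqτ⟩)))
    intro e; rw [e, orderOf_one] at hzo; exact hq.ne_one hzo.symm
  · obtain ⟨q, hq, hqσ, hqd⟩ := exists_prime_of_ne_bot hσ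
    obtain ⟨z, hzA, hzo, hzc⟩ := exists_central M.fac.nilA hq hqd
    refine M.symm.normalizer_absurd (hR.trans (part_le B τ)) hRne
      (le_normalizer_of_le_part M.fac.nilB hR (hBK.trans hKR)) ?_ hzc
      (hKR (hAK ((mem_part_iff M.fac.nilA).mpr ⟨hzA, by rw [hzo]; exact (Core.isPiNat_prime_iff hq).mpr hqσ⟩)))
    intro e; rw [e, orderOf_one] at hzo; exact hq.ne_one hzo.symm

/-- No proper subgroup contains a central element of `A` and a nontrivial part of `B`. -/
theorem no_central_part {a : G} (haA : a ∈ A) (ha1 : a ≠ 1) (hac : ∀ y ∈ A, Commute a y)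
    {τ : Set ℕ} (hτ : part B τ ≠ ⊥) {H : Subgroup G} (hH : H ≠ ⊤) (haH : a ∈ H)
    (hBH : part B τ ≤ H) : False := by
  obtain ⟨p, hp, -, n, hn⟩ := exists_prime_pow ha1
  set a' := a ^ n with ha'
  have ha'A : a' ∈ A := pow_mem haA n
  have ha'c : ∀ y ∈ A, Commute a' y := fun y hy => (hac y hy).pow_left n
  have ha'1 : a' ≠ 1 := fun e => hp.ne_one (by rw [← hn, e, orderOf_one])
  have hpA : p ∣ Nat.card A := hn ▸ Subgroup.orderOf_dvd_natCard A ha'A
  set S := Subgroup.zpowers a' ⊔ part B τ with hS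
  set N := Subgroup.normalizer (S : Set G) with hN
  have hNt : N ≠ ⊤ := M.normalizer_ne_top (fun e => hτ (le_bot_iff.mp (le_sup_right.trans e.le)))
    (fun e => hH (top_le_iff.mp (e ▸ sup_le (Subgroup.zpowers_le.mpr (pow_mem haH n)) hBH)))
  have hsp : Splits A B N := by
    refine M.splits_normalizer (le_normalizer_of_commute fun y hy x hx => ?_)
      (le_normalizer_part M.fac.nilB τ)
    obtain ⟨k, rfl⟩ := hx
    exact (ha'c y hy).zpow_left k
  have hsolv := M.solv N hNt hsp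
  set ρ : Set ℕ := {q | q = p ∨ (q ∈ τ ∧ q ∣ Nat.card B)} with hρ
  have eA : part (A ⊓ N) ρ ≤ part A {p} := by
    intro x hx
    rw [mem_part_iff (Core.isNilpotent_of_le inf_le_left M.fac.nilA)] at hx
    refine (mem_part_iff M.fac.nilA).mpr ⟨hx.1.1,
      isPiNat_mono hx.2 (Subgroup.orderOf_dvd_natCard A hx.1.1) fun q hq hmem hd => ?_⟩
    rcases hmem with h | h
    · exact h
    · exact absurd h.2 (M.fac.prime_not_dvd hq hd)
  have eB : part (B ⊓ N) ρ = part B τ := by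
    ext x
    rw [mem_part_iff (Core.isNilpotent_of_le inf_le_left M.fac.nilB), mem_part_iff M.fac.nilB]
    constructor
    · rintro ⟨hx, hxo⟩
      refine ⟨hx.1, isPiNat_mono hxo (Subgroup.orderOf_dvd_natCard B hx.1) fun q hq hmem hd => ?_⟩
      rcases hmem with h | h
      · exact absurd hd (h ▸ M.fac.prime_not_dvd hp hpA)
      · exact h.1
    · rintro ⟨hx, hxo⟩
      refine ⟨⟨hx, Subgroup.le_normalizer (Subgroup.mem_sup_right
        ((mem_part_iff M.fac.nilB).mpr ⟨hx, hxo⟩))⟩,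
        isPiNat_mono hxo (Subgroup.orderOf_dvd_natCard B hx) fun q _ hmem hd => .inr ⟨hmem, hd⟩⟩
  obtain ⟨K, hKN, hAK, hBK, hK⟩ := M.fac.exists_product hsp hsolv ρ
  rw [eB] at hBK hK
  have haK : a' ∈ K := hAK ((mem_part_iff (Core.isNilpotent_of_le inf_le_left M.fac.nilA)).mpr
    ⟨⟨ha'A, Subgroup.le_normalizer (Subgroup.mem_sup_left (Subgroup.mem_zpowers a'))⟩,
      by rw [hn]; exact (Core.isPiNat_prime_iff hp).mpr (.inl rfl)⟩)
  have hKs : Group.IsSolvable K := solvable_of_solvable_injective (f := Subgroup.inclusion hKN) (Subgroup.inclusion_injective hKN)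
  obtain ⟨t, R, -, -, hRne, hKR, hR⟩ := M.fac.exists_core ((part_le _ _).trans inf_le_left)
    (part_le B τ) hAK hBK hK (fun e => ha'1 (Subgroup.mem_bot.mp (e ▸ haK))) hKs
  rcases hR with hR | hR
  · have hRA := hR.trans eA
    refine M.not_both (σ := {p}ᶜ) (M.part_compl_ne p) hτ
      (M.normalizer_ne_top hRne (M.ne_top_of_le (hRA.trans (part_le A _)))) ?_ (hBK.trans hKR)
    exact le_normalizer_of_commute fun y hy x hx => part_commute M.fac.nilA (hRA hx) hy
  · exact M.symm.normalizer_absurd (hR.trans (part_le B τ)) hRne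
      (le_normalizer_of_le_part M.fac.nilB hR (hBK.trans hKR)) ha'1 ha'c (hKR haK)

/-- `C(a) = A` for central elements `a ≠ 1` of `A`. -/
theorem mem_of_commute_central {a : G} (haA : a ∈ A) (ha1 : a ≠ 1) (hac : ∀ y ∈ A, Commute a y)
    {g : G} (hg : Commute g a) : g ∈ A := by
  obtain ⟨a', ha', b, hb, rfl⟩ := M.fac.mul g
  have hba : Commute b a := by
    have := (hac a' ha').symm.inv_left.mul_left hg
    rwa [inv_mul_cancel_left] at this
  by_cases hb1 : b = 1
  · rw [hb1, mul_one]; exact ha'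
  obtain ⟨q, hq, -, n, hn⟩ := exists_prime_pow hb1
  have hx1 : b ^ n ≠ 1 := fun e => hq.ne_one (by rw [← hn, e, orderOf_one])
  refine (M.no_central_part haA ha1 hac (M.symm.part_compl_ne q)
    (H := Subgroup.centralizer {b ^ n}) ?_ ?_ ?_).elim
  · intro e
    refine hx1 (Subgroup.mem_bot.mp (M.center ▸ ?_))
    exact Subgroup.mem_center_iff.mpr fun y =>
      (Subgroup.mem_centralizer_singleton_iff.mp (e ▸ Subgroup.mem_top y))
  · exact Subgroup.mem_centralizer_singleton_iff.mpr (hba.pow_left n).eq.symm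
  · intro y hy
    refine Subgroup.mem_centralizer_singleton_iff.mpr (part_commute M.fac.nilB ?_ hy).eq.symm
    exact (mem_part_iff M.fac.nilB).mpr
      ⟨pow_mem hb n, by rw [hn]; exact (Core.isPiNat_prime_iff hq).mpr rfl⟩

/-- The normaliser of a nontrivial part of `A` normalises `A`. -/
theorem normalizer_part_le {σ : Set ℕ} (hσ : part A σ ≠ ⊥) :
    Subgroup.normalizer (part A σ : Set G) ≤ Subgroup.normalizer (A : Set G) := by
  obtain ⟨q, hq, hqσ, hqd⟩ := exists_prime_of_ne_bot hσ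
  obtain ⟨z, hzA, hzo, hzc⟩ := exists_central M.fac.nilA hq hqd
  have hzP : z ∈ part A σ :=
    (mem_part_iff M.fac.nilA).mpr ⟨hzA, by rw [hzo]; exact (Core.isPiNat_prime_iff hq).mpr hqσ⟩
  intro n hn
  refine mem_normalizer_of_forall fun y hy => ?_
  refine le_of_parts M.fac.nilA (K := A.comap (MulAut.conj n).toMonoidHom) (σ := σ)
    (fun v hv => part_le A σ ((Subgroup.mem_normalizer_iff.mp hn v).mp hv)) (fun v hv => ?_) hy
  rw [Subgroup.mem_comap]
  refine M.mem_of_commute_central hzA (fun e => hq.ne_one (by rw [← hzo, e, orderOf_one])) hzc ?_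
  have hz' : n⁻¹ * z * n ∈ part A σ := ((Subgroup.mem_normalizer_iff'').mp hn z).mp hzP
  have := (part_commute M.fac.nilA hz' hv).symm.map (MulAut.conj n).toMonoidHom
  simpa [mul_assoc] using this

/-- An element moving a central element of `A` of prime order into `A` normalises `A`. -/
theorem mem_normalizer_of_conj {a : G} {r : ℕ} (hr : r.Prime) (haA : a ∈ A) (hao : orderOf a = r)
    (hac : ∀ y ∈ A, Commute a y) {h : G} (hh : h * a * h⁻¹ ∈ A) :
    h ∈ Subgroup.normalizer (A : Set G) := by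
  have hap : a ∈ part A ({r} : Set ℕ) :=
    (mem_part_iff M.fac.nilA).mpr ⟨haA, by rw [hao]; exact (Core.isPiNat_prime_iff hr).mpr rfl⟩
  rw [← inv_inv h]
  refine inv_mem (M.normalizer_part_le (M.part_compl_ne r) (mem_normalizer_of_forall fun v hv => ?_))
  have h1 : Commute (h * a * h⁻¹) v := part_commute M.fac.nilA (conj_mem_part M.fac.nilA hap hh) hv
  have h2 := h1.symm.map (MulAut.conj h⁻¹).toMonoidHom
  refine conj_mem_part M.fac.nilA hv (M.mem_of_commute_central haA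
    (fun e => hr.ne_one (by rw [← hao, e, orderOf_one])) hac ?_)
  simpa [mul_assoc] using h2

end Min

end Cfsg.Agent.Screen.KW
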