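import Cfsg.Agent.Screen.KegelWielandt.Basic
import Cfsg.Agent.Core.NilpotentHall
import Cfsg.Agent.Core.ThompsonFPF
import Cfsg.Agent.Transfer.GlaubermanThompson
import Cfsg.Agent.FGS2.BurnsideClass
import Mathlib.GroupTheory.Perm.Cycle.Type

/-! Wielandt's theorem: a product of two nilpotent subgroups of coprime orders is solvable. -/

set_option autoImplicit false
set_option linter.unusedSectionVars false

namespace Cfsg.Agent.Screen.KW

open scoped Pointwise
open Cfsg Cfsg.Agent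
open Cfsg.Agent.Core (IsPiNat)

universe u

variable {G : Type u} [Group G] [Finite G]

namespace Min

variable {A B : Subgroup G} (M : Min A B)
include M

theorem centralizer_ne_top {x : G} (hx : x ≠ 1) : Subgroup.centralizer {x} ≠ ⊤ := fun e => by
  refine hx (Subgroup.mem_bot.mp (M.center ▸ ?_))
  exact Subgroup.mem_center_iff.mpr fun y =>
    (Subgroup.mem_centralizer_singleton_iff.mp (e ▸ Subgroup.mem_top y))

/-- A factorised proper subgroup without cores in `A`, containing a central element of prime order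
of `B`, normalises `B`. -/
theorem le_normalizer_of_no_core {H : Subgroup G} (hH : H ≠ ⊤) (hsp : Splits A B H) {z : G}
    {r : ℕ} (hr : r.Prime) (hzB : z ∈ B) (hzo : orderOf z = r) (hzc : ∀ b ∈ B, Commute z b)
    (hzH : z ∈ H)
    (hR : ∀ (R : Subgroup G) (t : ℕ), t.Prime → IsPGroup t R → R ≤ A → R ≠ ⊥ →
      H ≤ Subgroup.normalizer (R : Set G) → False) :
    H ≤ Subgroup.normalizer (B : Set G) := by
  have hs := M.solv H hH hsp
  have hK : ∀ g ∈ H, ∃ a ∈ A ⊓ H, ∃ b ∈ B ⊓ H, g = a * b := fun g hg => by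
    obtain ⟨a, ha, haH, b, hb, hbH, e⟩ := hsp g hg
    exact ⟨a, ⟨ha, haH⟩, b, ⟨hb, hbH⟩, e⟩
  have hK' : ∀ g ∈ H, ∃ b ∈ B ⊓ H, ∃ a ∈ A ⊓ H, g = b * a := fun g hg => by
    obtain ⟨a, ha, b, hb, e⟩ := hK g⁻¹ (inv_mem hg)
    exact ⟨b⁻¹, inv_mem hb, a⁻¹, inv_mem ha, by rw [← inv_inv g, e, mul_inv_rev]⟩
  have hF : ∀ x ∈ Cfsg.fittingSubgroup H, (x : G) ∈ B := by
    intro x hx
    have hle : Cfsg.fittingSubgroup H ≤ B.subgroupOf H := by
      rw [Core.fittingSubgroup_eq_iSup]
      refine iSup_le fun t => ?_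
      by_cases ht : (t : ℕ) ∣ Nat.card A
      · have h1 := M.fac.core_le (inf_le_left : A ⊓ H ≤ A) (inf_le_left : B ⊓ H ≤ B) inf_le_right
          inf_le_right hK t.2 (M.fac.prime_not_dvd t.2 ht)
        by_cases hb : (Cfsg.pCore (t : ℕ) H).map H.subtype = ⊥
        · rw [(Subgroup.map_eq_bot_iff_of_injective _ H.subtype_injective).mp hb]; exact bot_le
        · exact (hR _ t t.2 ((Core.isPGroup_pCore (t : ℕ) H).map H.subtype) (h1.trans inf_le_left)
            hb le_normalizer_map_subtype).elim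
      · have h1 := M.fac.symm.core_le (inf_le_left : B ⊓ H ≤ B) (inf_le_left : A ⊓ H ≤ A)
          inf_le_right inf_le_right hK' t.2 ht
        intro y hy
        exact (h1 ⟨y, hy, rfl⟩).1
    exact hle hx
  have hzF : (⟨z, hzH⟩ : H) ∈ Cfsg.fittingSubgroup H :=
    Core.centralizer_fittingSubgroup_le (Subgroup.mem_centralizer_iff.mpr fun y hy =>
      Subtype.ext (hzc y (hF y hy)).symm.eq)
  intro h hh
  refine M.symm.mem_normalizer_of_conj hr hzB hzo hzc ?_
  exact hF _ ((Core.fittingSubgroup_normal H).conj_mem _ hzF ⟨h, hh⟩)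

theorem exists_right_normalizing : ∃ x ∈ B, x ≠ 1 ∧ x ∈ Subgroup.normalizer (A : Set G) := by
  by_contra hno
  push Not at hno
  rcases eq_top_or_exists_le_coatom A with h | ⟨H, hH, hAH⟩
  · exact M.left_ne_top h
  have hsp : Splits B A H := (M.fac.splits_of_le_left hAH).symm_of
  obtain ⟨p, hp, hp2, hpd⟩ := M.twoA 2
  obtain ⟨a, haA, hao, hac⟩ := exists_central M.fac.nilA hp hpd
  have hHA : H ≤ Subgroup.normalizer (A : Set G) :=
    M.symm.le_normalizer_of_no_core hH.1 hsp hp haA hao hac (hAH haA)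
      (fun R t _ _ hRB hne hHR => M.closure_absurd hRB hne (hAH.trans hHR))
  have heq : H = A := by
    refine le_antisymm (fun g hg => ?_) hAH
    obtain ⟨a', ha', b, hb, rfl⟩ := M.fac.mul g
    have hb1 : b = 1 := by
      by_contra hb1
      refine hno b hb hb1 (hHA ?_)
      simpa using mul_mem (inv_mem (hAH ha')) hg
    rw [hb1, mul_one]
    exact ha'
  rw [heq] at hH
  -- `A` is a maximal subgroup; transfer gives a normal `p`-complement
  have := Fact.mk hp
  obtain ⟨c, hc, hAc⟩ := card_eq_part_mul M.fac.nilA ({p} : Set ℕ)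
  set P := part A ({p} : Set ℕ) with hPdef
  have hidx : ¬ p ∣ P.index := by
    have e : P.index = c * Nat.card B := by
      refine Nat.eq_of_mul_eq_mul_left (Nat.card_pos (α := P)) ?_
      rw [P.card_mul_index, ← M.fac.card_mul, hAc, mul_assoc]
    rw [e, hp.dvd_mul, not_or]
    exact ⟨(Core.isPiNat_compl_singleton_iff hp).mp hc, M.fac.prime_not_dvd hp hpd⟩
  let P' : Sylow p G := (part_isPGroup (A := A) hp).toSylow hidx
  have hP' : (P' : Subgroup G) = P := rfl
  have hne : P ≠ ⊥ := part_ne_bot M.fac.nilA hp rfl hpd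
  set Z := centerThompsonOf p (P : Subgroup G) with hZ
  have hZA : Z ≤ A := (Transfer.ZJ.ct_le p P).trans (part_le A _)
  have hN : Subgroup.normalizer (Z : Set G) = A := by
    have hAN : A ≤ Subgroup.normalizer (Z : Set G) :=
      (le_normalizer_part M.fac.nilA _).trans (Transfer.ZJ.normalizer_le_ct p P)
    rcases eq_or_lt_of_le hAN with h | h
    · exact h.symm
    · exact absurd (hH.2 _ h) (M.normalizer_ne_top
        (Transfer.ZJ.ct_ne_bot (part_isPGroup hp) hne) (M.ne_top_of_le hZA))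
  have hnpc : HasNormalPComplement p
      (Subgroup.normalizer (centerThompsonOf p (P' : Subgroup G) : Set G)) := by
    rw [hP', ← hZ, hN]
    have := M.fac.nilA
    exact Core.ThompsonFPF.hasNormalPComplement_of_isNilpotent
  obtain ⟨Q, N, hNn, hc'⟩ := Transfer.ZJ.glauberman_thompson hp2 P' hnpc
  rcases M.simple.eq_bot_or_eq_top_of_normal N hNn with h | h
  · rw [h, Subgroup.isComplement'_bot_left] at hc'
    obtain ⟨q, hq, hqp, hqd⟩ := M.twoA p
    obtain ⟨k, hk⟩ := IsPGroup.iff_card.mp Q.2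
    rw [hc', Subgroup.card_top] at hk
    exact hqp ((Nat.prime_dvd_prime_iff_eq hq hp).mp
      (hq.dvd_of_dvd_pow (hk ▸ hqd.trans (Subgroup.card_subgroup_dvd_card A))))
  · rw [h, Subgroup.isComplement'_top_left] at hc'
    have hd : p ∣ Nat.card (Q : Subgroup G) := by
      rw [Sylow.card_eq_multiplicity]
      exact dvd_pow_self p (Nat.pos_iff_ne_zero.mp (hp.factorization_pos_of_dvd Nat.card_pos.ne'
        (hpd.trans (Subgroup.card_subgroup_dvd_card A))))
    rw [hc', Subgroup.card_bot] at hd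
    exact hp.ne_one (Nat.dvd_one.mp hd)

/-- An element of `B` normalising `A`: the factors of its centralizer. -/
theorem commute_split {x a b : G} (hxB : x ∈ B) (hxN : x ∈ Subgroup.normalizer (A : Set G))
    (ha : a ∈ A) (hb : b ∈ B) (h : Commute (a * b) x) : Commute a x ∧ Commute b x := by
  have h1 : x⁻¹ * (b * x * b⁻¹) ∈ B := mul_mem (inv_mem hxB) (mul_mem (mul_mem hb hxB) (inv_mem hb))
  have h2 : x⁻¹ * (b * x * b⁻¹) ∈ A := by
    have e : b * x * b⁻¹ = a⁻¹ * x * a := by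
      have := h.eq
      calc b * x * b⁻¹ = a⁻¹ * (a * b * x) * b⁻¹ := by simp [mul_assoc]
        _ = a⁻¹ * x * a := by rw [this]; simp [mul_assoc]
    rw [e]
    have h3 : x⁻¹ * a⁻¹ * x ∈ A := ((Subgroup.mem_normalizer_iff'').mp hxN a⁻¹).mp (inv_mem ha)
    have := mul_mem h3 ha
    simpa [mul_assoc] using this
  have hbx : Commute b x := by
    have := M.fac.eq_one h2 h1
    rw [inv_mul_eq_one] at this
    exact (mul_inv_eq_iff_eq_mul.mp this.symm : b * x = x * b)
  refine ⟨?_, hbx⟩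
  have := h.mul_left hbx.inv_left
  rwa [mul_inv_cancel_right] at this

/-- `C(x) ≤ N(B)` for `x` in `B` normalising `A`. -/
theorem centralizer_le {x : G} (hxB : x ∈ B) (hx1 : x ≠ 1)
    (hxN : x ∈ Subgroup.normalizer (A : Set G)) :
    Subgroup.centralizer {x} ≤ Subgroup.normalizer (B : Set G) := by
  obtain ⟨q, hq, -, n, hn⟩ := exists_prime_pow hx1
  set y := x ^ n with hy
  have hyB : y ∈ B := pow_mem hxB n
  have hyN : y ∈ Subgroup.normalizer (A : Set G) := pow_mem hxN n
  have hy1 : y ≠ 1 := fun e => hq.ne_one (by rw [← hn, e, orderOf_one])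
  have hqd : q ∣ Nat.card B := hn ▸ Subgroup.orderOf_dvd_natCard B hyB
  obtain ⟨z, hzB, hzo, hzc⟩ := exists_central M.fac.nilB hq hqd
  have hle : Subgroup.centralizer {x} ≤ Subgroup.centralizer {y} := fun g hg =>
    Subgroup.mem_centralizer_singleton_iff.mpr
      ((show Commute g x from Subgroup.mem_centralizer_singleton_iff.mp hg).pow_right n).eq
  refine hle.trans (M.le_normalizer_of_no_core (M.centralizer_ne_top hy1) ?_ hq hzB hzo hzc
    (Subgroup.mem_centralizer_singleton_iff.mpr (hzc y hyB).eq) ?_)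
  · intro g hg
    obtain ⟨a, ha, b, hb, rfl⟩ := M.fac.mul g
    obtain ⟨h1, h2⟩ := M.commute_split hyB hyN ha hb (Subgroup.mem_centralizer_singleton_iff.mp hg)
    exact ⟨a, ha, Subgroup.mem_centralizer_singleton_iff.mpr h1.eq, b, hb,
      Subgroup.mem_centralizer_singleton_iff.mpr h2.eq, rfl⟩
  · intro R t ht hRt hRA hne hHR
    have hRp : R ≤ part A ({t} : Set ℕ) := fun r hr => by
      obtain ⟨k, hk⟩ := hRt ⟨r, hr⟩
      refine (mem_part_iff M.fac.nilA).mpr ⟨hRA hr, ((Core.isPiNat_prime_pow ht (Set.mem_singleton t) k)).of_dvd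
        (orderOf_dvd_of_pow_eq_one ?_)⟩
      simpa using congrArg Subtype.val hk
    refine M.not_both (σ := {t}ᶜ) (M.part_compl_ne t) (M.symm.part_compl_ne q)
      (M.normalizer_ne_top hne (M.ne_top_of_le hRA))
      (le_normalizer_of_commute fun v hv r hr => part_commute M.fac.nilA (hRp hr) hv)
      (fun v hv => hHR (Subgroup.mem_centralizer_singleton_iff.mpr
        (part_commute M.fac.nilB ?_ hv).eq.symm))
    exact (mem_part_iff M.fac.nilB).mpr ⟨hyB, by rw [hn]; exact (Core.isPiNat_prime_iff hq).mpr rfl⟩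

/-- A central element of `B` does not normalise `A`. -/
theorem central_not_normalizes {z : G} (hzB : z ∈ B) (hz1 : z ≠ 1)
    (hzc : ∀ b ∈ B, Commute z b) : z ∉ Subgroup.normalizer (A : Set G) := fun h => by
  obtain ⟨q, hq, -, hqd⟩ := M.twoA 0
  have hne : A ≠ ⊥ := fun e => hq.ne_one <| Nat.dvd_one.mp <| by
    rw [e, Subgroup.card_bot] at hqd; exact hqd
  exact M.symm.no_central_part hzB hz1 hzc (τ := Set.univ)
    (part_ne_bot M.fac.nilA hq trivial hqd) (M.normalizer_ne_top hne M.left_ne_top) h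
    ((part_le A _).trans Subgroup.le_normalizer)

/-- Elements of `A ∩ zAz⁻¹` do not commute with elements of `N(A)` of order prime to `|A|`. -/
theorem no_comm {z : G} (hzB : z ∈ B) (hz1 : z ≠ 1) (hzc : ∀ b ∈ B, Commute z b) {u : G}
    {p : ℕ} (hp : p.Prime) (huA : u ∈ A) (huo : orderOf u = p) (huz : z⁻¹ * u * z ∈ A) {w : G}
    (hw1 : w ≠ 1) (hwN : w ∈ Subgroup.normalizer (A : Set G))
    (hwo : (orderOf w).Coprime (Nat.card A)) (hc : Commute u w) : False := by
  set N := Subgroup.normalizer (A : Set G) with hN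
  have hAN : A ≤ N := Subgroup.le_normalizer
  have F' := M.fac.restrict (H := N) (M.fac.splits_of_le_left hAN)
  set A' := (A ⊓ N).subgroupOf N
  set B' := (B ⊓ N).subgroupOf N
  have hidx : B'.index = Nat.card A' := Nat.eq_of_mul_eq_mul_left (Nat.card_pos (α := B'))
    (by rw [B'.card_mul_index, ← F'.card_mul, mul_comm])
  obtain ⟨c, hc'⟩ := Core.exists_conj_ge_of_nilpotentHall B' (Subgroup.zpowers ⟨w, hwN⟩) F'.nilB
    (by rw [hidx]; exact F'.cop.symm) (fun q hq hd => by
      rw [Nat.card_zpowers, Subgroup.orderOf_mk] at hd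
      rcases hq.dvd_mul.mp (F'.card_mul.symm ▸
        (hd.trans (Subgroup.orderOf_dvd_natCard N hwN))) with h | h
      · rw [Core.card_subgroupOf inf_le_right] at h
        exact absurd (Nat.eq_one_of_dvd_coprimes hwo hd (h.trans (Subgroup.card_dvd_of_le inf_le_left)))
          hq.ne_one
      · exact h)
  have h1 : ((c : G))⁻¹ * w * c ∈ B := by
    have := Core.mem_conj_smul_iff.mp (hc' (Subgroup.mem_zpowers _))
    exact this.1
  obtain ⟨a, ha, b, hb, hcab⟩ := M.fac.mul (c : G)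
  rw [hcab] at h1
  have hwB : a⁻¹ * w * a ∈ B := by
    have := mul_mem (mul_mem hb h1) (inv_mem hb)
    simpa [mul_assoc] using this
  have hwN' : a⁻¹ * w * a ∈ N := mul_mem (mul_mem (inv_mem (hAN ha)) hwN) (hAN ha)
  have hw' : a⁻¹ * w * a ≠ 1 := fun e => hw1 <| by
    have := congrArg (fun t => a * t * a⁻¹) e
    simpa [mul_assoc] using this
  have hu' : a⁻¹ * u * a ∈ Subgroup.normalizer (B : Set G) := by
    refine M.centralizer_le hwB hw' hwN' (Subgroup.mem_centralizer_singleton_iff.mpr ?_)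
    simpa using (hc.map (MulAut.conj a⁻¹).toMonoidHom).eq
  have hu1 : a⁻¹ * u * a ≠ 1 := fun e => hp.ne_one <| by
    rw [← huo, show u = a * (a⁻¹ * u * a) * a⁻¹ by simp [mul_assoc], e, mul_one, mul_inv_cancel,
      orderOf_one]
  have hCu : ∀ g, Commute g u → g ∈ N := by
    intro g hg
    have h2 : a⁻¹ * g * a ∈ N := M.symm.centralizer_le (mul_mem (mul_mem (inv_mem ha) huA) ha) hu1 hu'
      (Subgroup.mem_centralizer_singleton_iff.mpr (by
        simpa using (hg.map (MulAut.conj a⁻¹).toMonoidHom).eq))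
    have := mul_mem (mul_mem (hAN ha) h2) (inv_mem (hAN ha))
    simpa [mul_assoc] using this
  refine M.central_not_normalizes hzB hz1 hzc
    (M.normalizer_part_le (M.part_compl_ne p) (mem_normalizer_of_forall fun v hv => ?_))
  have hup : z⁻¹ * u * z ∈ part A ({p} : Set ℕ) := (mem_part_iff M.fac.nilA).mpr ⟨huz, by
    have := orderOf_injective (MulAut.conj z⁻¹).toMonoidHom (MulAut.conj z⁻¹).injective u
    simp only [MulEquiv.coe_toMonoidHom, MulAut.conj_apply, inv_inv] at this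
    rw [this, huo]; exact (Core.isPiNat_prime_iff hp).mpr rfl⟩
  have hcu : Commute (z * v * z⁻¹) u := by
    have := (part_commute M.fac.nilA hup hv).symm.map (MulAut.conj z).toMonoidHom
    simpa [mul_assoc] using this
  refine conj_mem_part M.fac.nilA hv (M.fac.mem_of_normalizer (hCu _ hcu) ?_)
  have := orderOf_injective (MulAut.conj z).toMonoidHom (MulAut.conj z).injective v
  simp only [MulEquiv.coe_toMonoidHom, MulAut.conj_apply] at this
  rw [this]
  exact M.fac.cop.coprime_dvd_left (Subgroup.orderOf_dvd_natCard A (part_le A _ hv))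

/-- The main step: some `a ≠ 1` in `A ∩ N(B)` such that `z a` centralises `P`. -/
theorem exists_centralizing {x : G} {q : ℕ} (hq : q.Prime) (hxB : x ∈ B)
    (hxN : x ∈ Subgroup.normalizer (A : Set G)) (hxo : orderOf x = q) {z : G} (hzB : z ∈ B)
    (hz1 : z ≠ 1) (hzc : ∀ b ∈ B, Commute z b) {p : ℕ} (hp : p.Prime) {P : Subgroup G}
    (hPA : P ≤ part A ({p} : Set ℕ)) (hPne : P ≠ ⊥) (hPz : ∀ u ∈ P, z⁻¹ * u * z ∈ A)
    (hinv : ∀ w ∈ B, w ∈ Subgroup.normalizer (A : Set G) → ∀ u ∈ P, w * u * w⁻¹ ∈ P) :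
    ∃ a ∈ A, a ∈ Subgroup.normalizer (B : Set G) ∧ a ≠ 1 ∧ ∀ u ∈ P, Commute (z * a) u := by
  classical
  have := Fact.mk hp
  have := Fact.mk hq
  set C := Subgroup.centralizer (P : Set G) with hC
  have hC_iff : ∀ g, g ∈ C ↔ ∀ u ∈ P, Commute g u := fun g =>
    ⟨fun h u hu => ((Subgroup.mem_centralizer_iff.mp h) u hu).symm,
      fun h => Subgroup.mem_centralizer_iff.mpr fun u hu => (h u hu).eq.symm⟩
  set N := Subgroup.normalizer (A : Set G) with hNdef
  set PA := part A ({p}ᶜ : Set ℕ) with hPAdef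
  have hPAC : PA ≤ C := fun v hv => (hC_iff v).mpr fun u hu =>
    (part_commute M.fac.nilA (hPA hu) hv).symm
  have hzPA : MulAut.conj z • PA ≤ C := fun v hv => (hC_iff v).mpr fun u hu => by
    have hu' : z⁻¹ * u * z ∈ part A ({p} : Set ℕ) := by
      have := conj_mem_part M.fac.nilA (g := z⁻¹) (hPA hu) (by simpa using hPz u hu)
      simpa using this
    have := (part_commute M.fac.nilA hu' (Core.mem_conj_smul_iff.mp hv)).symm.map
      (MulAut.conj z).toMonoidHom
    simpa [mul_assoc] using this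
  obtain ⟨α, hα, hAα⟩ := card_eq_part_mul M.fac.nilA ({p}ᶜ : Set ℕ)
  rw [compl_compl] at hα
  have hidx : PA.index = α * Nat.card B := by
    refine Nat.eq_of_mul_eq_mul_left (Nat.card_pos (α := PA)) ?_
    rw [PA.card_mul_index, ← M.fac.card_mul, hAα, mul_assoc]
  obtain ⟨c₀, hc₀⟩ := Core.exists_conj_ge_of_nilpotentHall (PA.subgroupOf C)
    ((MulAut.conj z • PA).subgroupOf C)
    (Core.isNilpotent_congr (Subgroup.subgroupOfEquivOfLe hPAC).symm
      (Core.isNilpotent_of_le (part_le A _) M.fac.nilA))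
    (by
      rw [Core.card_subgroupOf hPAC]
      refine Nat.Coprime.coprime_dvd_right (Subgroup.relIndex_dvd_index_of_le hPAC) ?_
      rw [hidx]
      exact ((isPiNat_card_part A _).coprime_compl (by rwa [compl_compl])).mul_right
        (M.fac.cop.coprime_dvd_left (card_part_dvd A _)))
    (fun r hr hd => by
      rw [Core.card_subgroupOf hzPA, Core.card_conj_smul] at hd
      rwa [Core.card_subgroupOf hPAC])
  have hc₀N : (c₀ : G)⁻¹ * z ∈ N := by
    refine M.normalizer_part_le (M.part_compl_ne p) (mem_normalizer_of_forall fun v hv => ?_)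
    have h1 : z * v * z⁻¹ ∈ MulAut.conj z • PA := by
      rw [Core.mem_conj_smul_iff]; simpa [mul_assoc] using hv
    have h2 : ((c₀⁻¹ * ⟨z * v * z⁻¹, hzPA h1⟩ * c₀ : C) : G) ∈ PA := by
      have h3 := hc₀ (x := (⟨z * v * z⁻¹, hzPA h1⟩ : C)) h1
      rw [Core.mem_conj_smul_iff] at h3
      exact h3
    simpa [mul_assoc] using h2
  -- the coset of elements of `C` moving `zA` as `z` does
  set S := {g : G // g ∈ C ∧ g⁻¹ * z ∈ N} with hS
  let e : (C ⊓ N : Subgroup G) ≃ S :=
    { toFun := fun m => ⟨c₀ * m, mul_mem c₀.2 m.2.1, by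
        rw [mul_inv_rev, mul_assoc]; exact mul_mem (inv_mem (show (m : G) ∈ N from m.2.2)) hc₀N⟩
      invFun := fun g => ⟨(c₀ : G)⁻¹ * g.1, C.mul_mem (C.inv_mem c₀.2) g.2.1, by
        have := mul_mem hc₀N (inv_mem g.2.2)
        simpa [mul_assoc] using this⟩
      left_inv := fun m => Subtype.ext (inv_mul_cancel_left _ _)
      right_inv := fun g => Subtype.ext (mul_inv_cancel_left _ _) }
  obtain ⟨u, huP, hu1⟩ : ∃ u ∈ P, u ≠ 1 := (Subgroup.bot_or_exists_ne_one P).resolve_left hPne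
  obtain ⟨r, hr, hrd, n, hn⟩ := exists_prime_pow hu1
  have hrp : r = p := isPiNat_of_mem (isPiNat_card_part A ({p} : Set ℕ)) (hPA huP) r hr hrd
  rw [hrp] at hn
  have hnc : ∀ w, w ≠ 1 → w ∈ N → (orderOf w).Coprime (Nat.card A) → w ∈ C → False :=
    fun w h1 h2 h3 h4 => M.no_comm hzB hz1 hzc hp (part_le A _ (hPA (pow_mem huP n))) hn
      (hPz _ (pow_mem huP n)) h1 h2 h3 (((hC_iff w).mp h4) _ (pow_mem huP n)).symm
  have hqA : q.Coprime (Nat.card A) := by
    rw [← hxo]
    exact M.fac.cop.symm.coprime_dvd_left (Subgroup.orderOf_dvd_natCard B hxB)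
  have hqS : ¬ q ∣ Nat.card S := by
    rw [← Nat.card_congr e]
    intro hd
    obtain ⟨w, hw⟩ := exists_prime_orderOf_dvd_card' (G := (C ⊓ N : Subgroup G)) q hd
    rw [← Subgroup.orderOf_coe] at hw
    exact hnc w (fun e => hq.ne_one (by rw [← hw, e, orderOf_one])) w.2.2 (by rw [hw]; exact hqA)
      w.2.1
  have hconj : ∀ y ∈ B, y ∈ N → ∀ g : G, g ∈ C ∧ g⁻¹ * z ∈ N →
      y * g * y⁻¹ ∈ C ∧ (y * g * y⁻¹)⁻¹ * z ∈ N := by
    rintro y hy hyN g ⟨h1, h2⟩
    refine ⟨(hC_iff _).mpr fun v hv => ?_, ?_⟩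
    · have hv' : y⁻¹ * v * y ∈ P := by simpa using hinv y⁻¹ (inv_mem hy) (inv_mem hyN) v hv
      have := (((hC_iff g).mp h1) _ hv').map (MulAut.conj y).toMonoidHom
      simpa [mul_assoc] using this
    · have e' : (y * g * y⁻¹)⁻¹ * z = y * (g⁻¹ * z) * y⁻¹ := by
        simp only [mul_inv_rev, inv_inv, mul_assoc]
        rw [(hzc y⁻¹ (inv_mem hy)).eq]
      rw [e']
      exact mul_mem (mul_mem hyN h2) (inv_mem hyN)
  let σ : Equiv.Perm S :=
    { toFun := fun g => ⟨x * g.1 * x⁻¹, hconj x hxB hxN g.1 g.2⟩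
      invFun := fun g => ⟨x⁻¹ * g.1 * x, by simpa using hconj x⁻¹ (inv_mem hxB) (inv_mem hxN) g.1 g.2⟩
      left_inv := fun g => Subtype.ext (by simp [mul_assoc])
      right_inv := fun g => Subtype.ext (by simp [mul_assoc]) }
  have hσn : ∀ (m : ℕ) (g : S), ((σ ^ m) g).1 = x ^ m * g.1 * (x ^ m)⁻¹ := by
    intro m
    induction m with
    | zero => intro g; simp
    | succ m ih =>
      intro g
      rw [pow_succ', Equiv.Perm.mul_apply]
      show x * ((σ ^ m) g).1 * x⁻¹ = _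
      rw [ih, pow_succ']
      simp [mul_assoc]
  have hσq : σ ^ q ^ 1 = 1 := Equiv.ext fun g => Subtype.ext <| by
    rw [hσn, pow_one, ← hxo, pow_orderOf_eq_one]; simp
  have := Fintype.ofFinite S
  obtain ⟨⟨c, hcC, hcz⟩, hfix⟩ := Equiv.Perm.exists_fixed_point_of_prime
    (by rwa [← Nat.card_eq_fintype_card]) hσq
  have hxc : Commute c x := by
    have h : x * c * x⁻¹ = c := congrArg Subtype.val hfix
    exact (mul_inv_eq_iff_eq_mul.mp h : x * c = c * x).symm
  -- write `c = z x' a`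
  obtain ⟨b, hb, a, ha, rfl⟩ := M.fac.symm.mul c
  have hax : Commute a x ∧ Commute b x := by
    have h := hxc.inv_left
    rw [mul_inv_rev] at h
    obtain ⟨h1, h2⟩ := M.commute_split hxB hxN (inv_mem ha) (inv_mem hb) h
    exact ⟨Commute.inv_left_iff.mp h1, Commute.inv_left_iff.mp h2⟩
  have hx1 : x ≠ 1 := fun e => hq.ne_one (by rw [← hxo, e, orderOf_one])
  have haNB : a ∈ Subgroup.normalizer (B : Set G) :=
    M.centralizer_le hxB hx1 hxN (Subgroup.mem_centralizer_singleton_iff.mpr hax.1.eq)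
  set x' := z⁻¹ * b with hx'
  have hx'B : x' ∈ B := mul_mem (inv_mem hzB) hb
  have hx'N : x' ∈ N := by
    have := inv_mem (mul_mem (Subgroup.le_normalizer ha : a ∈ N) hcz)
    simpa [hx', mul_assoc] using this
  have hb' : b = z * x' := by simp [hx']
  rw [hb'] at hcC
  by_cases ha1 : a = 1
  · exfalso
    rw [ha1, mul_one] at hcC
    have hzP : z ∈ Subgroup.normalizer (P : Set G) := mem_normalizer_of_forall fun v hv => by
      have hv' : x'⁻¹ * v * x' ∈ P := by simpa using hinv x'⁻¹ (inv_mem hx'B) (inv_mem hx'N) v hv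
      have e : z * v * z⁻¹ = x'⁻¹ * v * x' := by
        have h := ((hC_iff _).mp hcC _ hv').eq
        have h2 : z * x' * (x'⁻¹ * v * x') * (z * x')⁻¹ = x'⁻¹ * v * x' := by
          rw [h, mul_inv_cancel_right]
        rw [← h2]
        simp [mul_assoc]
      rw [e]; exact hv'
    exact M.symm.no_central_part hzB hz1 hzc (M.part_compl_ne p)
      (M.normalizer_ne_top hPne (M.ne_top_of_le (hPA.trans (part_le A _)))) hzP
      (le_normalizer_of_commute fun v hv w hw => part_commute M.fac.nilA (hPA hw) hv)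
  have hxa : Commute x' a := by
    have h1 : x' * a * x'⁻¹ * a⁻¹ ∈ A :=
      mul_mem (((Subgroup.mem_normalizer_iff).mp hx'N a).mp ha) (inv_mem ha)
    have h2 : x' * a * x'⁻¹ * a⁻¹ ∈ B := by
      have := mul_mem hx'B (((Subgroup.mem_normalizer_iff).mp haNB x'⁻¹).mp (inv_mem hx'B))
      simpa [mul_assoc] using this
    have h3 := M.fac.eq_one h1 h2
    rw [mul_inv_eq_one, mul_inv_eq_iff_eq_mul] at h3
    exact h3
  set n' := orderOf a with hn'
  have hpow : ∀ m : ℕ, ∃ w ∈ B, (∀ v ∈ B, Commute w v) ∧ (z * a) ^ m = w * a ^ m := by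
    intro m
    induction m with
    | zero => exact ⟨1, one_mem _, fun v _ => Commute.one_left v, by simp⟩
    | succ m ih =>
      obtain ⟨w, hw, hwc, hwe⟩ := ih
      refine ⟨z * (a * w * a⁻¹), mul_mem hzB (((Subgroup.mem_normalizer_iff).mp haNB w).mp hw),
        fun v hv => (hzc v hv).mul_left ?_, ?_⟩
      · have hv' : a⁻¹ * v * a ∈ B := ((Subgroup.mem_normalizer_iff'').mp haNB v).mp hv
        have := (hwc _ hv').map (MulAut.conj a).toMonoidHom
        simpa [mul_assoc] using this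
      · rw [pow_succ', hwe, pow_succ']
        simp [mul_assoc]
  obtain ⟨w, hw, hwc, hwe⟩ := hpow n'
  rw [pow_orderOf_eq_one, mul_one] at hwe
  have hw1 : w = 1 := by
    by_contra hw1
    have h1 : Commute (z * a) w := by rw [← hwe]; exact Commute.self_pow _ _
    have h2 : Commute a w := by
      have := (hzc w hw).inv_left.mul_left h1
      rwa [inv_mul_cancel_left] at this
    exact ha1 (M.fac.eq_one ha (M.symm.mem_of_commute_central hw hw1 hwc h2))
  have hcn : (z * x' * a) ^ n' = x' ^ n' := by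
    have e : z * x' * a = x' * (z * a) := by rw [(hzc x' hx'B).eq, mul_assoc]
    rw [e, ((hzc x' hx'B).symm.mul_right hxa).mul_pow, hwe, hw1, mul_one]
  have hx'1 : x' = 1 := by
    have h1 : x' ^ n' = 1 := by
      by_contra h
      refine hnc _ h (pow_mem hx'N n') ?_ (hcn ▸ pow_mem hcC n')
      exact M.fac.cop.symm.coprime_dvd_left (Subgroup.orderOf_dvd_natCard B (pow_mem hx'B n'))
    exact orderOf_eq_one_iff.mp (Nat.eq_one_of_dvd_coprimes
      (M.fac.cop.coprime_dvd_left (Subgroup.orderOf_dvd_natCard A ha))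
      (orderOf_dvd_of_pow_eq_one h1) (Subgroup.orderOf_dvd_natCard B hx'B))
  rw [hx'1, mul_one] at hcC
  exact ⟨a, ha, haNB, ha1, (hC_iff _).mp hcC⟩

theorem false_of (hlt : Nat.card B < Nat.card A) : False := by
  classical
  obtain ⟨x₀, hx₀B, hx₀1, hx₀N⟩ := M.exists_right_normalizing
  obtain ⟨q, hq, -, nx, hnx⟩ := exists_prime_pow hx₀1
  set x := x₀ ^ nx
  have hxB : x ∈ B := pow_mem hx₀B nx
  have hxN := pow_mem hx₀N nx
  obtain ⟨r, hr, -, hrd⟩ := M.twoB 0
  obtain ⟨z, hzB, hzo, hzc⟩ := exists_central M.fac.nilB hr hrd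
  have hz1 : z ≠ 1 := fun e => hr.ne_one (by rw [← hzo, e, orderOf_one])
  -- `A ∩ zAz⁻¹` is nontrivial
  obtain ⟨u, huA, hu1, huz⟩ : ∃ u ∈ A, u ≠ 1 ∧ z⁻¹ * u * z ∈ A := by
    by_contra hno
    push Not at hno
    have hinj : Function.Injective (fun t : A × A => (t.1 : G) * z * t.2) := by
      rintro ⟨⟨a, ha⟩, ⟨a', ha'⟩⟩ ⟨⟨b, hb⟩, ⟨b', hb'⟩⟩ h
      simp only at h
      have h1 : z⁻¹ * (a⁻¹ * b) * z = a' * b'⁻¹ := by
        calc z⁻¹ * (a⁻¹ * b) * z = z⁻¹ * a⁻¹ * (b * z * b') * b'⁻¹ := by simp [mul_assoc]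
          _ = a' * b'⁻¹ := by rw [← h]; simp [mul_assoc]
      have h2 : a⁻¹ * b = 1 := by
        by_contra hne
        exact hno _ (mul_mem (inv_mem ha) hb) hne (h1 ▸ mul_mem ha' (inv_mem hb'))
      rw [inv_mul_eq_one] at h2
      subst h2
      simpa using h
    have h := Nat.card_le_card_of_injective _ hinj
    rw [Nat.card_prod, ← M.fac.card_mul] at h
    exact absurd (Nat.le_of_mul_le_mul_left h Nat.card_pos) (not_le.mpr hlt)
  obtain ⟨p, hp, -, np, hnp⟩ := exists_prime_pow hu1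
  set D := A ⊓ A.comap (MulAut.conj z⁻¹).toMonoidHom with hD
  have hDnil : Group.IsNilpotent D := Core.isNilpotent_of_le inf_le_left M.fac.nilA
  set P := part D ({p} : Set ℕ) with hP
  have hPA : P ≤ part A ({p} : Set ℕ) := fun v hv => (mem_part_iff M.fac.nilA).mpr
    ⟨(part_le D _ hv).1, ((mem_part_iff hDnil).mp hv).2⟩
  have hPz : ∀ v ∈ P, z⁻¹ * v * z ∈ A := fun v hv => by simpa using (part_le D _ hv).2
  have hPne : P ≠ ⊥ := fun e => by
    have : u ^ np ∈ P := (mem_part_iff hDnil).mpr ⟨pow_mem (show u ∈ D from ⟨huA, by simpa using huz⟩) np,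
      by rw [hnp]; exact (Core.isPiNat_prime_iff hp).mpr rfl⟩
    rw [e, Subgroup.mem_bot] at this
    exact hp.ne_one (by rw [← hnp, this, orderOf_one])
  have hinv : ∀ w ∈ B, w ∈ Subgroup.normalizer (A : Set G) → ∀ v ∈ P, w * v * w⁻¹ ∈ P := by
    intro w hw hwN v hv
    obtain ⟨h1, h2⟩ := part_le D _ hv
    refine conj_mem_part hDnil hv ⟨((Subgroup.mem_normalizer_iff).mp hwN v).mp h1, ?_⟩
    show z⁻¹ * (w * v * w⁻¹) * z⁻¹⁻¹ ∈ A
    have h3 : w * (z⁻¹ * v * z) * w⁻¹ ∈ A :=
      ((Subgroup.mem_normalizer_iff).mp hwN _).mp (by simpa using h2)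
    have e : z⁻¹ * (w * v * w⁻¹) * z = w * (z⁻¹ * v * z) * w⁻¹ := by
      calc z⁻¹ * (w * v * w⁻¹) * z = (z⁻¹ * w) * v * (w⁻¹ * z) := by simp [mul_assoc]
        _ = (w * z⁻¹) * v * (z * w⁻¹) := by
          rw [((hzc w hw).inv_left).eq, (hzc w⁻¹ (inv_mem hw)).eq]
        _ = _ := by simp [mul_assoc]
    rw [inv_inv, e]
    exact h3
  obtain ⟨a, haA, haNB, ha1, hac⟩ := M.exists_centralizing hq hxB hxN hnx hzB hz1 hzc hp hPA hPne
    hPz hinv
  -- solve `z = k (a k⁻¹ a⁻¹)` in the centre of `B`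
  set Zc := B ⊓ Subgroup.centralizer (B : Set G) with hZc
  have hZcomm : ∀ k ∈ Zc, ∀ b ∈ B, Commute k b := fun k hk b hb =>
    ((Subgroup.mem_centralizer_iff.mp hk.2) b hb).symm
  have hzZ : z ∈ Zc := ⟨hzB, Subgroup.mem_centralizer_iff.mpr fun b hb => (hzc b hb).eq.symm⟩
  have hconjZ : ∀ η ∈ Subgroup.normalizer (B : Set G), ∀ k ∈ Zc, η * k * η⁻¹ ∈ Zc := by
    intro η hη k hk
    refine ⟨((Subgroup.mem_normalizer_iff).mp hη k).mp hk.1, Subgroup.mem_centralizer_iff.mpr ?_⟩
    intro b hb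
    have hb' : η⁻¹ * b * η ∈ B := ((Subgroup.mem_normalizer_iff'').mp hη b).mp hb
    have := (hZcomm k hk _ hb').map (MulAut.conj η).toMonoidHom
    simpa [mul_assoc] using this.eq.symm
  have hfix : ∀ k ∈ Zc, Commute a k → k = 1 := fun k hk h => by
    by_contra hk1
    exact ha1 (M.fac.eq_one haA (M.symm.mem_of_commute_central hk.1 hk1 (hZcomm k hk) h))
  letI : CommGroup Zc :=
    { (inferInstance : Group Zc) with
      mul_comm := fun k l => Subtype.ext (hZcomm k k.2 l l.2.1).eq }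
  let f : Zc → Zc := fun k =>
    k * ⟨a * (k : G)⁻¹ * a⁻¹, hconjZ a haNB _ (inv_mem k.2)⟩
  have hf : Function.Injective f := by
    intro k l h
    have h' : (k : G) * (a * (k : G)⁻¹ * a⁻¹) = (l : G) * (a * (l : G)⁻¹ * a⁻¹) := congrArg Subtype.val h
    have h1 : (l : G)⁻¹ * k = a * ((l : G)⁻¹ * k) * a⁻¹ := by
      calc (l : G)⁻¹ * k = (l : G)⁻¹ * (k * (a * (k : G)⁻¹ * a⁻¹)) * (a * k * a⁻¹) := by
            simp [mul_assoc]
        _ = a * ((l : G)⁻¹ * k) * a⁻¹ := by rw [h']; simp [mul_assoc]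
    have h2 := hfix _ (mul_mem (inv_mem l.2) k.2)
      (mul_inv_eq_iff_eq_mul.mp h1.symm : a * ((l : G)⁻¹ * k) = (l : G)⁻¹ * k * a)
    exact Subtype.ext (inv_mul_eq_one.mp h2).symm
  obtain ⟨⟨k, hk⟩, hke⟩ := (Finite.injective_iff_surjective.mp hf) ⟨z, hzZ⟩
  have hke' : z * a = k * a * k⁻¹ := by
    have h : k * (a * k⁻¹ * a⁻¹) = z := congrArg Subtype.val hke
    rw [← h]; simp [mul_assoc]
  have hk1 : k ≠ 1 := fun e => hz1 <| by
    have h : k * (a * k⁻¹ * a⁻¹) = z := congrArg Subtype.val hke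
    rw [← h, e]; simp
  set P1 := P.map (MulAut.conj k⁻¹).toMonoidHom with hP1
  have hP1mem : ∀ v ∈ P1, ∃ w ∈ P, v = k⁻¹ * w * k := by
    rintro v ⟨w, hw, rfl⟩
    exact ⟨w, hw, by simp⟩
  have haP1 : ∀ v ∈ P1, Commute a v := fun v hv => by
    obtain ⟨w, hw, rfl⟩ := hP1mem v hv
    have h := hac w hw
    rw [hke'] at h
    have := h.map (MulAut.conj k⁻¹).toMonoidHom
    simpa [mul_assoc] using this
  have hP1A : P1 ≤ part A ({p} : Set ℕ) := fun v hv => by
    have hvc := haP1 v hv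
    obtain ⟨w, hw, rfl⟩ := hP1mem v hv
    have ho : orderOf (k⁻¹ * w * k) = orderOf w := by
      simpa using orderOf_injective (MulAut.conj k⁻¹).toMonoidHom (MulAut.conj k⁻¹).injective w
    have hwA := part_le A _ (hPA hw)
    refine (mem_part_iff M.fac.nilA).mpr ⟨M.fac.mem_of_normalizer
      (M.symm.centralizer_le haA ha1 haNB
        (Subgroup.mem_centralizer_singleton_iff.mpr hvc.symm.eq)) ?_, ?_⟩
    · rw [ho]; exact M.fac.cop.coprime_dvd_left (Subgroup.orderOf_dvd_natCard A hwA)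
    · rw [ho]; exact ((mem_part_iff M.fac.nilA).mp (hPA hw)).2
  have hP1ne : P1 ≠ ⊥ := fun e => hPne
    ((Subgroup.map_eq_bot_iff_of_injective _ (MulAut.conj k⁻¹).injective).mp e)
  have hP1z : ∀ v ∈ P1, k⁻¹⁻¹ * v * k⁻¹ ∈ A := fun v hv => by
    obtain ⟨w, hw, rfl⟩ := hP1mem v hv
    have := part_le A _ (hPA hw)
    simpa [mul_assoc] using this
  have hinv1 : ∀ w ∈ B, w ∈ Subgroup.normalizer (A : Set G) → ∀ v ∈ P1, w * v * w⁻¹ ∈ P1 := by
    intro w hw hwN v hv
    obtain ⟨v', hv', rfl⟩ := hP1mem v hv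
    refine ⟨w * v' * w⁻¹, hinv w hw hwN v' hv', ?_⟩
    show k⁻¹ * (w * v' * w⁻¹) * k⁻¹⁻¹ = _
    calc k⁻¹ * (w * v' * w⁻¹) * k⁻¹⁻¹ = (k⁻¹ * w) * v' * (w⁻¹ * k) := by simp [mul_assoc]
      _ = (w * k⁻¹) * v' * (k * w⁻¹) := by
        rw [(hZcomm k hk w hw).inv_left.eq, ← (hZcomm k hk w⁻¹ (inv_mem hw)).eq]
      _ = _ := by simp [mul_assoc]
  obtain ⟨a₂, ha₂A, ha₂N, -, ha₂c⟩ := M.exists_centralizing hq hxB hxN hnx
    (inv_mem hk.1) (inv_ne_one.mpr hk1) (fun b hb => (hZcomm k hk b hb).inv_left) hp hP1A hP1ne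
    hP1z hinv1
  -- the elements of `A ∩ N(B)` lifting to `C(P1)` in `Z(B)(A ∩ N(B))`
  let W : Subgroup G :=
    { carrier := {η | η ∈ A ∧ η ∈ Subgroup.normalizer (B : Set G) ∧
        ∃ ζ : Zc, ∀ v ∈ P1, Commute ((ζ : G) * η) v}
      one_mem' := ⟨one_mem _, one_mem _, 1, fun v _ => by simp⟩
      mul_mem' := by
        rintro η η' ⟨h1, h2, ζ, hζ⟩ ⟨h1', h2', ζ', hζ'⟩
        refine ⟨mul_mem h1 h1', mul_mem h2 h2', ⟨(ζ : G) * (η * ζ' * η⁻¹),
          mul_mem ζ.2 (hconjZ η h2 _ ζ'.2)⟩, fun v hv => ?_⟩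
        have := (hζ v hv).mul_left (hζ' v hv)
        simpa [mul_assoc] using this
      inv_mem' := by
        rintro η ⟨h1, h2, ζ, hζ⟩
        refine ⟨inv_mem h1, inv_mem h2, ⟨η⁻¹ * (ζ : G)⁻¹ * η⁻¹⁻¹,
          hconjZ η⁻¹ (inv_mem h2) _ (inv_mem ζ.2)⟩, fun v hv => ?_⟩
        have := (hζ v hv).inv_left
        simpa [mul_assoc] using this }
  obtain ⟨u₁, hu₁, hu₁1⟩ : ∃ u ∈ P1, u ≠ 1 :=
    (Subgroup.bot_or_exists_ne_one P1).resolve_left hP1ne
  have huniq : ∀ (η : G) (ζ ζ' : Zc), (∀ v ∈ P1, Commute ((ζ : G) * η) v) →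
      (∀ v ∈ P1, Commute ((ζ' : G) * η) v) → ζ = ζ' := by
    intro η ζ ζ' h h'
    refine Subtype.ext ?_
    by_contra hne
    have hc : Commute ((ζ : G) * (ζ' : G)⁻¹) u₁ := by
      have := (h u₁ hu₁).mul_left (h' u₁ hu₁).inv_left
      simpa [mul_assoc] using this
    have hd := mul_mem ζ.2 (inv_mem ζ'.2)
    exact hu₁1 (M.fac.eq_one (part_le A _ (hP1A hu₁)) (M.symm.mem_of_commute_central hd.1
      (fun e => hne (mul_inv_eq_one.mp e)) (hZcomm _ hd) hc.symm))
  have hWex : ∀ η : W, ∃ ζ : Zc, ∀ v ∈ P1, Commute ((ζ : G) * (η : G)) v := fun η => η.2.2.2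
  choose ζ hζ using hWex
  have := Fintype.ofFinite W
  set K : Zc := ∏ η : W, ζ η with hK
  have hmain : ∀ v : W, (K : G) = ((ζ v : Zc) : G) ^ Fintype.card W * ((v : G) * (K : G) * (v : G)⁻¹) := by
    intro v
    let ψ : Zc →* Zc :=
      { toFun := fun l => ⟨(v : G) * l * (v : G)⁻¹, hconjZ _ v.2.2.1 _ l.2⟩
        map_one' := Subtype.ext (by simp)
        map_mul' := fun l m => Subtype.ext (by simp [mul_assoc]) }
    have hcoc : ∀ η : W, ζ (v * η) = ζ v * ψ (ζ η) := fun η =>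
      huniq (v * η : W) _ _ (hζ _) fun t ht => by
        have := (hζ v t ht).mul_left (hζ η t ht)
        simpa [ψ, mul_assoc] using this
    have h1 : K = ζ v ^ Fintype.card W * ψ K := by
      conv_lhs => rw [hK, ← Equiv.prod_comp (Equiv.mulLeft v) ζ]
      simp only [Equiv.coe_mulLeft, hcoc, Finset.prod_mul_distrib, Finset.prod_const,
        Finset.card_univ, ← map_prod, ← hK]
    have h2 := congrArg Subtype.val h1
    simpa [ψ] using h2
  have hKone : (K : G) = 1 := by
    have hva : ζ (⟨a, haA, haNB, 1, fun v hv => by simpa using haP1 v hv⟩ : W) = 1 :=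
      huniq a _ _ (hζ _) (fun v hv => by simpa using haP1 v hv)
    have h := hmain ⟨a, haA, haNB, 1, fun v hv => by simpa using haP1 v hv⟩
    rw [hva] at h
    simp only [OneMemClass.coe_one, one_pow, one_mul] at h
    exact hfix _ K.2 (mul_inv_eq_iff_eq_mul.mp h.symm : a * (K : G) = (K : G) * a)
  have hv2 : ζ (⟨a₂, ha₂A, ha₂N, ⟨k⁻¹, inv_mem hk⟩, ha₂c⟩ : W) = ⟨k⁻¹, inv_mem hk⟩ :=
    huniq a₂ _ _ (hζ _) ha₂c
  have h := hmain ⟨a₂, ha₂A, ha₂N, ⟨k⁻¹, inv_mem hk⟩, ha₂c⟩
  rw [hv2, hKone, mul_one, mul_inv_cancel, mul_one] at h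
  have hkW : orderOf k ∣ Nat.card W := by
    refine orderOf_dvd_of_pow_eq_one ?_
    rw [Nat.card_eq_fintype_card]
    simpa [inv_pow] using h.symm
  exact hk1 (orderOf_eq_one_iff.mp (Nat.eq_one_of_dvd_coprimes M.fac.cop
    (hkW.trans (Subgroup.card_dvd_of_le fun η hη => hη.1)) (Subgroup.orderOf_dvd_natCard B hk.1)))

theorem false : False := by
  rcases lt_trichotomy (Nat.card B) (Nat.card A) with h | h | h
  · exact M.false_of h
  · obtain ⟨q, hq, -, hd⟩ := M.twoA 0
    exact M.fac.prime_not_dvd hq hd (h ▸ hd)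
  · exact M.symm.false_of h

end Min

/-- A factor with a single prime gives a prime power class. -/
theorem prime_power_absurd {A B : Subgroup G} (F : Fac A B) [IsSimpleGroup G]
    (hns : ¬ Group.IsSolvable G) (p : ℕ) (hp : p.Prime)
    (h : ∀ q : ℕ, q.Prime → q ∣ Nat.card A → q = p) : False := by
  have := Fact.mk hp
  obtain ⟨k, hk⟩ : ∃ k, Nat.card A = p ^ k :=
    ⟨_, Nat.eq_prime_pow_of_unique_prime_dvd Nat.card_pos.ne' fun {q} hq hd => h q hq hd⟩
  by_cases hB : B = ⊥
  · refine hns ?_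
    have hP : IsPGroup p G := IsPGroup.of_card (n := k) (by
      rw [← F.card_mul, hB, Subgroup.card_bot, mul_one, hk])
    have := hP.isNilpotent
    infer_instance
  obtain ⟨q, hq, hqd⟩ := Nat.exists_prime_and_dvd (mt (Subgroup.card_eq_one (H := B)).mp hB)
  obtain ⟨b, hb, hbo, hbc⟩ := exists_central F.nilB hq hqd
  have hle : B ≤ Subgroup.centralizer {b} := fun y hy =>
    Subgroup.mem_centralizer_singleton_iff.mpr (hbc y hy).eq.symm
  have hi : B.index = p ^ k := by
    refine Nat.eq_of_mul_eq_mul_left (Nat.card_pos (α := B)) ?_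
    rw [B.card_mul_index, ← F.card_mul, hk, mul_comm]
  obtain ⟨i, -, hi'⟩ := (Nat.dvd_prime_pow hp).mp (hi ▸ Subgroup.index_dvd_of_le hle)
  have := Fact.mk (FGS2.burnside_class G p i hp b
    (fun e => hq.ne_one (by rw [← hbo, e, orderOf_one])) hi')
  have : IsCyclic G := isCyclic_of_prime_card rfl
  exact hns inferInstance

theorem isSolvable_of_coprime_aux : ∀ (n : ℕ) (G : Type u) [Group G] [Finite G] (A B : Subgroup G),
    Nat.card G ≤ n → Fac A B → Group.IsSolvable G := by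
  intro n
  induction n with
  | zero => intro G _ _ _ _ h; exact absurd h (by simp [Nat.card_pos.ne'])
  | succ n ih =>
    intro G _ _ A B hn F
    rcases subsingleton_or_nontrivial G with hG | hG
    · infer_instance
    have hsolv : ∀ H : Subgroup G, H ≠ ⊤ → Splits A B H → Group.IsSolvable H := by
      intro H hH hsp
      have hlt : Nat.card H < Nat.card G := lt_of_le_of_ne (Subgroup.card_le_card_group H)
        (fun e => hH (Subgroup.eq_top_of_card_eq H e))
      exact ih H _ _ (by omega) (F.restrict hsp)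
    by_cases hs : ∀ N : Subgroup G, N.Normal → N = ⊥ ∨ N = ⊤
    · by_contra hns
      have : IsSimpleGroup G := ⟨hs⟩
      have hcen : Subgroup.center G = ⊥ := (hs _ inferInstance).resolve_right fun e => hns <| by
        letI : CommGroup G := { (inferInstance : Group G) with
          mul_comm := fun a b => (Subgroup.mem_center_iff.mp (e ▸ Subgroup.mem_top b) a) }
        infer_instance
      have htwo : ∀ {A B : Subgroup G}, Fac A B → ∀ p : ℕ, ∃ q, q.Prime ∧ q ≠ p ∧ q ∣ Nat.card A := by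
        intro A B F p
        by_contra hno
        push Not at hno
        by_cases hp : p.Prime
        · exact prime_power_absurd F hns p hp fun q hq hd => by
            by_contra hne; exact hno q hq hne hd
        · exact prime_power_absurd F hns 2 Nat.prime_two fun q hq hd => absurd hd
            (hno q hq (fun e => hp (e ▸ hq)))
      exact Min.false (⟨F, inferInstance, hcen, hsolv, htwo F, htwo F.symm⟩ : Min A B)
    push Not at hs
    obtain ⟨N, hN, hb, ht⟩ := hs
    have hsp : Splits A B N := by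
      intro g hg
      obtain ⟨a, ha, b, hb', rfl⟩ := F.mul g
      have h : (QuotientGroup.mk' N) a = ((QuotientGroup.mk' N) b)⁻¹ := eq_inv_of_mul_eq_one_left (by
        rw [← map_mul]; exact (QuotientGroup.eq_one_iff _).mpr hg)
      have h1 : (QuotientGroup.mk' N) a = 1 := by
        refine orderOf_eq_one_iff.mp (Nat.eq_one_of_dvd_coprimes F.cop
          ((orderOf_map_dvd _ a).trans (Subgroup.orderOf_dvd_natCard A ha)) ?_)
        rw [h, orderOf_inv]
        exact (orderOf_map_dvd _ b).trans (Subgroup.orderOf_dvd_natCard B hb')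
      have haN : a ∈ N := (QuotientGroup.eq_one_iff _).mp h1
      exact ⟨a, ha, haN, b, hb', by simpa using mul_mem (inv_mem haN) hg, rfl⟩
    have h1 : 1 < Nat.card N := Subgroup.one_lt_card_iff_ne_bot N |>.2 hb
    have h2 := N.card_mul_index
    rw [Subgroup.index_eq_card] at h2
    have h3 : 1 < Nat.card (G ⧸ N) := by
      rw [← Subgroup.index_eq_card]; exact Subgroup.one_lt_index_of_ne_top ht
    have e1 := hsolv N ht hsp
    have e2 : Group.IsSolvable (G ⧸ N) := ih (G ⧸ N) (A.map (QuotientGroup.mk' N))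
      (B.map (QuotientGroup.mk' N)) (by nlinarith)
      ⟨Core.isNilpotent_map F.nilA _, Core.isNilpotent_map F.nilB _,
        (F.cop.coprime_dvd_left (Subgroup.card_map_dvd A _)).coprime_dvd_right
          (Subgroup.card_map_dvd B _), fun g => by
        obtain ⟨g, rfl⟩ := QuotientGroup.mk'_surjective N g
        obtain ⟨a, ha, b, hb', rfl⟩ := F.mul g
        exact ⟨_, Subgroup.mem_map_of_mem _ ha, _, Subgroup.mem_map_of_mem _ hb', map_mul _ _ _⟩⟩
    exact (Group.isSolvable_iff_subgroup_quotient N).2 ⟨e1, e2⟩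

/-- **Wielandt**: a product of nilpotent subgroups of coprime orders is solvable. -/
theorem Fac.isSolvable {A B : Subgroup G} (F : Fac A B) : Group.IsSolvable G :=
  isSolvable_of_coprime_aux _ G A B le_rfl F

end Cfsg.Agent.Screen.KW
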