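import Cfsg.Agent.Core.Hall
import Cfsg.Agent.Core.Fitting
import Cfsg.Agent.Core.Products
import Cfsg.Agent.FGS4.Subnormal

/-! The parts of a nilpotent subgroup, and factorisations by nilpotent subgroups. -/

set_option autoImplicit false
set_option linter.unusedSectionVars false

namespace Cfsg.Agent.Screen.KW

open scoped Pointwise
open Cfsg Cfsg.Agent
open Cfsg.Agent.Core (IsPiNat)

variable {G : Type*} [Group G] [Finite G]

/-- The `σ`-part of a subgroup. -/
def part (A : Subgroup G) (σ : Set ℕ) : Subgroup G := (piCore σ A).map A.subtype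

theorem part_le (A : Subgroup G) (σ : Set ℕ) : part A σ ≤ A := Subgroup.map_subtype_le _

theorem isPiNat_card_part (A : Subgroup G) (σ : Set ℕ) : IsPiNat σ (Nat.card (part A σ)) := by
  rw [part, Core.card_map_subtype]
  exact Core.isPiNat_card_piCore σ A

theorem isPiNat_of_mem {H : Subgroup G} {σ : Set ℕ} (h : IsPiNat σ (Nat.card H)) {g : G}
    (hg : g ∈ H) : IsPiNat σ (orderOf g) :=
  h.of_dvd (Subgroup.orderOf_dvd_natCard H hg)

theorem mem_part_iff {A : Subgroup G} (hA : Group.IsNilpotent A) {σ : Set ℕ} {a : G} :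
    a ∈ part A σ ↔ a ∈ A ∧ IsPiNat σ (orderOf a) := by
  refine ⟨fun h => ⟨part_le A σ h, isPiNat_of_mem (isPiNat_card_part A σ) h⟩, fun ⟨ha, ho⟩ => ?_⟩
  have hle : Subgroup.zpowers (⟨a, ha⟩ : A) ≤ piCore σ A :=
    Core.le_piCore_of_isSubnormal (FGS4.isSubnormal_of_isNilpotent _)
      (by rwa [Nat.card_zpowers, Subgroup.orderOf_mk])
  exact ⟨⟨a, ha⟩, hle (Subgroup.mem_zpowers _), rfl⟩

theorem conj_mem_part {A : Subgroup G} (hA : Group.IsNilpotent A) {σ : Set ℕ} {g a : G}
    (ha : a ∈ part A σ) (hg : g * a * g⁻¹ ∈ A) : g * a * g⁻¹ ∈ part A σ := by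
  refine (mem_part_iff hA).mpr ⟨hg, ?_⟩
  have := orderOf_injective (MulAut.conj g).toMonoidHom (MulAut.conj g).injective a
  simp only [MulEquiv.coe_toMonoidHom, MulAut.conj_apply] at this
  rw [this]
  exact ((mem_part_iff hA).mp ha).2

theorem le_normalizer_part {A : Subgroup G} (hA : Group.IsNilpotent A) (σ : Set ℕ) :
    A ≤ Subgroup.normalizer (part A σ : Set G) := by
  intro a ha
  refine Subgroup.mem_normalizer_iff.mpr fun x => ⟨fun hx =>
    conj_mem_part hA hx (mul_mem (mul_mem ha (part_le A σ hx)) (inv_mem ha)), fun hx => ?_⟩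
  have h := conj_mem_part hA (g := a⁻¹) hx
    (mul_mem (mul_mem (inv_mem ha) (part_le A σ hx)) (inv_mem (inv_mem ha)))
  simpa [mul_assoc] using h

theorem part_commute {A : Subgroup G} (hA : Group.IsNilpotent A) {σ : Set ℕ} {x y : G}
    (hx : x ∈ part A σ) (hy : y ∈ part A σᶜ) : Commute x y := by
  obtain ⟨x, hx, rfl⟩ := hx
  obtain ⟨y, hy, rfl⟩ := hy
  have h : Disjoint (piCore σ A) (piCore σᶜ A) := disjoint_iff.mpr (Core.piCore_inf_piCore_compl σ A)
  exact (Subgroup.commute_of_normal_of_disjoint _ _ inferInstance inferInstance h x y hx hy).map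
    A.subtype

theorem index_part_dvd {A : Subgroup G} (hA : Group.IsNilpotent A) (σ : Set ℕ) :
    IsPiNat σᶜ (piCore σ A).index := by
  intro q hq hd hmem
  have := Fact.mk hq
  obtain ⟨P⟩ : Nonempty (Sylow q A) := inferInstance
  have hle : (P : Subgroup A) ≤ piCore σ A := by
    refine Core.le_piCore_of_isSubnormal (FGS4.isSubnormal_of_isNilpotent _) ?_
    obtain ⟨k, hk⟩ := IsPGroup.iff_card.mp P.2
    rw [hk]
    exact Core.isPiNat_prime_pow hq hmem k
  exact P.not_dvd_index (hd.trans (Subgroup.index_dvd_of_le hle))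

/-- A subgroup containing both parts contains the whole subgroup. -/
theorem le_of_parts {A : Subgroup G} (hA : Group.IsNilpotent A) {σ : Set ℕ} {K : Subgroup G}
    (h1 : part A σ ≤ K) (h2 : part A σᶜ ≤ K) : A ≤ K := by
  rw [← Subgroup.subgroupOf_eq_top, ← Subgroup.index_eq_one]
  refine Core.IsPiNat.eq_one (π := σᶜ) ?_ ?_
  · refine (index_part_dvd hA σ).of_dvd (Subgroup.index_dvd_of_le fun x hx => ?_)
    exact h1 ⟨x, hx, rfl⟩
  · refine Core.IsPiNat.of_dvd (index_part_dvd hA σᶜ) (Subgroup.index_dvd_of_le fun x hx => ?_)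
    exact h2 ⟨x, hx, rfl⟩

/-- A subgroup of a part normalised by the part is normalised by the whole subgroup. -/
theorem le_normalizer_of_le_part {A : Subgroup G} (hA : Group.IsNilpotent A) {σ : Set ℕ}
    {R : Subgroup G} (hR : R ≤ part A σ)
    (hn : part A σ ≤ Subgroup.normalizer (R : Set G)) : A ≤ Subgroup.normalizer (R : Set G) := by
  refine le_of_parts hA hn fun y hy => Subgroup.mem_normalizer_iff.mpr fun x => ?_
  constructor
  · intro hx
    rwa [← (part_commute hA (hR hx) hy).eq, mul_inv_cancel_right]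
  · intro hx
    have hc : Commute (y * x * y⁻¹) y := part_commute hA (hR hx) hy
    have e : y * x * y⁻¹ = x := by
      have e' := hc.eq
      rw [inv_mul_cancel_right] at e'
      exact (mul_left_cancel e').symm
    rwa [e] at hx

/-- A subgroup is trivial on the part complementary to its primes. -/
theorem card_part_dvd (A : Subgroup G) (σ : Set ℕ) : Nat.card (part A σ) ∣ Nat.card A :=
  Subgroup.card_dvd_of_le (part_le A σ)

theorem dvd_card_part {A : Subgroup G} (hA : Group.IsNilpotent A) {σ : Set ℕ} {q : ℕ} (hq : q.Prime)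
    (hmem : q ∈ σ) (hd : q ∣ Nat.card A) : q ∣ Nat.card (part A σ) := by
  have := Fact.mk hq
  obtain ⟨a, ha⟩ := exists_prime_orderOf_dvd_card' q hd
  rw [← Subgroup.orderOf_coe] at ha
  exact ha ▸ Subgroup.orderOf_dvd_natCard _
    ((mem_part_iff hA).mpr ⟨a.2, by rw [ha]; exact (Core.isPiNat_prime_iff hq).mpr hmem⟩)

theorem part_ne_bot {A : Subgroup G} (hA : Group.IsNilpotent A) {σ : Set ℕ} {q : ℕ} (hq : q.Prime)
    (hmem : q ∈ σ) (hd : q ∣ Nat.card A) : part A σ ≠ ⊥ := fun h => by
  have := dvd_card_part hA hq hmem hd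
  rw [h, Subgroup.card_bot] at this
  exact hq.ne_one (Nat.dvd_one.mp this)

theorem exists_prime_of_ne_bot {A : Subgroup G} {σ : Set ℕ} (h : part A σ ≠ ⊥) :
    ∃ q : ℕ, q.Prime ∧ q ∈ σ ∧ q ∣ Nat.card A := by
  obtain ⟨q, hq, hd⟩ := Nat.exists_prime_and_dvd
    (mt (Subgroup.card_eq_one (H := part A σ)).mp h)
  exact ⟨q, hq, isPiNat_card_part A σ q hq hd, hd.trans (card_part_dvd A σ)⟩

theorem part_isPGroup {A : Subgroup G} {p : ℕ} (hp : p.Prime) :
    IsPGroup p (part A ({p} : Set ℕ)) := by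
  obtain ⟨k, hk⟩ := (Core.isPiNat_singleton_iff hp Nat.card_pos.ne').mp (isPiNat_card_part A {p})
  exact IsPGroup.of_card hk

/-- Each prime divisor of the order of a nilpotent subgroup gives a central element of that order. -/
theorem exists_central {A : Subgroup G} (hA : Group.IsNilpotent A) {p : ℕ} (hp : p.Prime)
    (hd : p ∣ Nat.card A) : ∃ a ∈ A, orderOf a = p ∧ ∀ b ∈ A, Commute a b := by
  have := Fact.mk hp
  set P := part A ({p} : Set ℕ) with hP
  have hne := part_ne_bot hA (σ := {p}) hp rfl hd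
  have : Nontrivial P := (Subgroup.nontrivial_iff_ne_bot P).mpr hne
  have hPp : IsPGroup p P := part_isPGroup hp
  have hnt : Nontrivial (Subgroup.center P) := hPp.center_nontrivial
  obtain ⟨k, hk⟩ := IsPGroup.iff_card.mp (hPp.to_subgroup (Subgroup.center P))
  have hk0 : k ≠ 0 := fun h => by
    rw [h, pow_zero] at hk
    exact (Finite.one_lt_card_iff_nontrivial.mpr hnt).ne' hk
  obtain ⟨z, hz⟩ := exists_prime_orderOf_dvd_card' (G := Subgroup.center P) p
    (hk ▸ dvd_pow_self p hk0)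
  rw [← Subgroup.orderOf_coe, ← Subgroup.orderOf_coe] at hz
  refine ⟨((z : P) : G), part_le A _ (z : P).2, hz, ?_⟩
  have hle : A ≤ Subgroup.centralizer {((z : P) : G)} := by
    refine le_of_parts hA (σ := {p}) (fun y hy => ?_) (fun y hy => ?_)
    · rw [Subgroup.mem_centralizer_singleton_iff]
      exact congrArg Subtype.val (Subgroup.mem_center_iff.mp z.2 ⟨y, hy⟩)
    · rw [Subgroup.mem_centralizer_singleton_iff]
      exact (part_commute hA (z : P).2 hy).eq.symm
  exact fun b hb => (Subgroup.mem_centralizer_singleton_iff.mp (hle hb)).symm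

theorem part_inf {A B : Subgroup G} (hA : Group.IsNilpotent A) (hB : Group.IsNilpotent B)
    (σ : Set ℕ) : part (A ⊓ B) σ = part A σ ⊓ part B σ := by
  ext x
  rw [Subgroup.mem_inf, mem_part_iff hA, mem_part_iff hB,
    mem_part_iff (Core.isNilpotent_of_le inf_le_left hA), Subgroup.mem_inf]
  tauto

theorem card_eq_part_mul {A : Subgroup G} (hA : Group.IsNilpotent A) (σ : Set ℕ) :
    ∃ c, IsPiNat σᶜ c ∧ Nat.card A = Nat.card (part A σ) * c :=
  ⟨(piCore σ A).index, index_part_dvd hA σ, by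
    rw [part, Core.card_map_subtype, Subgroup.card_mul_index]⟩

/-- If `G = AB` then the parts of `A` and `B` make up a Hall subgroup containing both. -/
theorem hall_eq_mul {A B H : Subgroup G} {σ : Set ℕ} (hA : Group.IsNilpotent A)
    (hB : Group.IsNilpotent B) (hAB : ∀ g : G, ∃ a ∈ A, ∃ b ∈ B, g = a * b) (hH : IsPiHall σ H)
    (h1 : part A σ ≤ H) (h2 : part B σ ≤ H) :
    (H : Set G) = (part A σ : Set G) * (part B σ : Set G) := by
  obtain ⟨α, hα, hAc⟩ := card_eq_part_mul hA σ
  obtain ⟨β, hβ, hBc⟩ := card_eq_part_mul hB σ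
  have hH' := Core.isPiHall_iff.mp hH
  set PA := part A σ
  set PB := part B σ
  set D := PA ⊓ PB with hD
  have hrel := Core.relIndex_eq_index_of_forall hAB
  have e1 : Nat.card (A ⊓ B : Subgroup G) * A.relIndex B = Nat.card B := by
    rw [← Subgroup.inf_relIndex_right, Core.card_mul_relIndex inf_le_right]
  obtain ⟨γ, hγ, hDc⟩ := card_eq_part_mul (Core.isNilpotent_of_le inf_le_left hA : Group.IsNilpotent
    (A ⊓ B : Subgroup G)) σ
  rw [part_inf hA hB] at hDc
  have e2 : Nat.card PA * α * (Nat.card PB * β) =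
      Nat.card H * H.index * (Nat.card D * γ) := by
    rw [← hAc, ← hBc, ← hDc, H.card_mul_index, ← A.card_mul_index, ← e1, hrel]
    ring
  have hDpi : IsPiNat σ (Nat.card D) :=
    (isPiNat_card_part A σ).of_dvd (Subgroup.card_dvd_of_le inf_le_left)
  have key : Nat.card PA * Nat.card PB = Nat.card H * Nat.card D := by
    refine Nat.dvd_antisymm ?_ ?_
    · refine (((isPiNat_card_part A σ).mul (isPiNat_card_part B σ)).coprime_compl
        (hH'.2.mul hγ)).dvd_of_dvd_mul_right ⟨α * β, ?_⟩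
      linear_combination -e2
    · refine ((hH'.1.mul hDpi).coprime_compl (hα.mul hβ)).dvd_of_dvd_mul_right ⟨H.index * γ, ?_⟩
      linear_combination e2
  have e3 : (PA.subgroupOf H).index ≤ (PA.subgroupOf H).relIndex (PB.subgroupOf H) := by
    refine le_of_eq ?_
    rw [Subgroup.relIndex_subgroupOf h2]
    show PA.relIndex H = PA.relIndex PB
    have f1 := Core.card_mul_relIndex h1
    have f2 := Core.card_mul_relIndex (inf_le_right : PA ⊓ PB ≤ PB)
    rw [Subgroup.inf_relIndex_right, ← hD] at f2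
    refine Nat.eq_of_mul_eq_mul_left (Nat.mul_pos (Nat.card_pos (α := PA)) (Nat.card_pos (α := D))) ?_
    linear_combination (Nat.card D : ℕ) * f1 - (Nat.card PA : ℕ) * f2 - key
  ext g
  constructor
  · intro hg
    obtain ⟨x, hx, y, hy, hxy⟩ := Core.exists_mul_of_index_le_relIndex e3 ⟨g, hg⟩
    exact ⟨x, hx, y, hy, (congrArg Subtype.val hxy).symm⟩
  · rintro ⟨a, ha, b, hb, rfl⟩
    exact mul_mem (h1 ha) (h2 hb)

/-- If `σ`-subgroups lie in conjugates of a Hall `σ`-subgroup, the product of the parts of two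
nilpotent factors is a subgroup. -/
theorem exists_part_mul {A B : Subgroup G} {σ : Set ℕ} (hA : Group.IsNilpotent A)
    (hB : Group.IsNilpotent B) (hAB : ∀ g : G, ∃ a ∈ A, ∃ b ∈ B, g = a * b) {H : Subgroup G}
    (hH : IsPiHall σ H)
    (hcont : ∀ Q : Subgroup G, IsPiNat σ (Nat.card Q) → ∃ g : G, Q ≤ MulAut.conj g • H) :
    ∃ K : Subgroup G, IsPiHall σ K ∧ (K : Set G) = (part A σ : Set G) * (part B σ : Set G) := by
  obtain ⟨g, hg⟩ := hcont _ (isPiNat_card_part A σ)
  obtain ⟨h, hh⟩ := hcont _ (isPiNat_card_part B σ)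
  obtain ⟨b, hb, a, ha, hba⟩ := Core.forall_exists_mul_symm hAB (h * g⁻¹)
  have hK := Core.isPiHall_conj_smul (a * g) hH
  refine ⟨_, hK, hall_eq_mul hA hB hAB hK (fun x hx => ?_) (fun x hx => ?_)⟩
  · have hx' : a⁻¹ * x * a ∈ part A σ :=
      ((Subgroup.mem_normalizer_iff'').mp (le_normalizer_part hA σ ha) x).mp hx
    have := Core.mem_conj_smul_iff.mp (hg hx')
    rw [Core.mem_conj_smul_iff]
    simpa [mul_assoc] using this
  · have hx' : b * x * b⁻¹ ∈ part B σ :=
      ((Subgroup.mem_normalizer_iff).mp (le_normalizer_part hB σ hb) x).mp hx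
    have := Core.mem_conj_smul_iff.mp (hh hx')
    rw [Core.mem_conj_smul_iff]
    have e : h = b * (a * g) := by rw [← mul_assoc, ← hba, inv_mul_cancel_right]
    simpa [e, mul_assoc] using this

theorem exists_part_mul_of_solvable [Group.IsSolvable G] {A B : Subgroup G} (σ : Set ℕ)
    (hA : Group.IsNilpotent A) (hB : Group.IsNilpotent B)
    (hAB : ∀ g : G, ∃ a ∈ A, ∃ b ∈ B, g = a * b) :
    ∃ K : Subgroup G, IsPiHall σ K ∧ (K : Set G) = (part A σ : Set G) * (part B σ : Set G) := by
  obtain ⟨H, hH⟩ := Core.exists_isPiHall_of_isSolvable (G := G) σ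
  exact exists_part_mul hA hB hAB hH fun Q hQ => Core.exists_le_conj_smul_of_isPiHall
    Core.isPiSeparable_of_isSolvable Core.hallSolvable_of_isSolvable hH hQ

theorem exists_part_mul_prime {A B : Subgroup G} {p : ℕ} [hp : Fact p.Prime]
    (hA : Group.IsNilpotent A) (hB : Group.IsNilpotent B)
    (hAB : ∀ g : G, ∃ a ∈ A, ∃ b ∈ B, g = a * b) :
    ∃ K : Subgroup G, IsPiHall {p} K ∧
      (K : Set G) = (part A {p} : Set G) * (part B {p} : Set G) := by
  obtain ⟨P⟩ : Nonempty (Sylow p G) := inferInstance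
  refine exists_part_mul hA hB hAB (H := (P : Subgroup G)) ?_ fun Q hQ => ?_
  · rw [Core.isPiHall_iff]
    exact ⟨(Core.isPGroup_iff_isPiNat (G := (P : Subgroup G))).mp P.2, (Core.isPiNat_compl_singleton_iff hp.out).mpr
      P.not_dvd_index⟩
  · obtain ⟨T, hT⟩ := ((Core.isPGroup_iff_isPiNat (G := Q)).mpr hQ).exists_le_sylow
    obtain ⟨g, hg⟩ := MulAction.exists_smul_eq G P T
    exact ⟨g, fun x hx => by
      have := hT hx
      rw [← hg] at this
      exact this⟩

end Cfsg.Agent.Screen.KW
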